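import Cfsg.Agent.H24.FpfPerfect

/-! Groups acting on abelian groups so that every nontrivial vector is fixed by a unique Sylow subgroup. -/

set_option autoImplicit false

namespace Cfsg.Agent.H97.Pal

open scoped Pointwise

variable {H U : Type*} [Group H] [CommGroup U] [MulDistribMulAction H U]

/-- fixed vectors -/
def fix (U : Type*) [CommGroup U] [MulDistribMulAction H U] (K : Subgroup H) : Subgroup U where
  carrier := {u | ∀ x ∈ K, x • u = u}
  mul_mem' ha hb x hx := by rw [smul_mul', ha x hx, hb x hx]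
  one_mem' x _ := smul_one x
  inv_mem' ha x hx := by rw [smul_inv', ha x hx]

theorem mem_fix {K : Subgroup H} {u : U} : u ∈ fix U K ↔ ∀ x ∈ K, x • u = u := Iff.rfl

/-- every nontrivial vector of `W` is fixed by exactly one Sylow `s`-subgroup -/
def NC (s : ℕ) (H : Type*) [Group H] [MulDistribMulAction H U] (W : Subgroup U) : Prop :=
  ∀ u ∈ W, u ≠ 1 → ∃! S : Sylow s H, u ∈ fix U (S : Subgroup H)

variable {s : ℕ}

theorem smul_one_iff (g : H) (u : U) : g • u = 1 ↔ u = 1 := by rw [smul_eq_iff_eq_inv_smul, smul_one]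

theorem smul_mem_fix (g : H) (S : Sylow s H) (u : U) :
    g • u ∈ fix U ((g • S : Sylow s H) : Subgroup H) ↔ u ∈ fix U (S : Subgroup H) := by
  have e : ∀ x, x ∈ ((g • S : Sylow s H) : Subgroup H) ↔ g⁻¹ * x * g ∈ (S : Subgroup H) := fun x => by
    rw [Sylow.coe_subgroup_smul, Subgroup.mem_pointwise_smul_iff_inv_smul_mem]; simp
  refine ⟨fun h x hx => ?_, fun h x hx => ?_⟩
  · have := h (g * x * g⁻¹) ((e _).2 (by simpa [mul_assoc] using hx))
    rwa [mul_smul, inv_smul_smul, mul_smul, smul_left_cancel_iff] at this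
  · have := h _ ((e x).1 hx)
    rwa [mul_smul, mul_smul, inv_smul_eq_iff] at this

theorem NC.norm {W : Subgroup U} (h : NC s H W) {u : U} (hu : u ∈ W) (h1 : u ≠ 1) {S : Sylow s H}
    (hS : u ∈ fix U (S : Subgroup H)) {g : H} (hg : g • u = u) :
    g ∈ Subgroup.normalizer ((S : Subgroup H) : Set H) :=
  Sylow.smul_eq_iff_mem_normalizer.1 ((h u hu h1).unique (hg ▸ (smul_mem_fix g S u).2 hS) hS)

theorem NC.mem {W : Subgroup U} (h : NC s H W) {u : U} (hu : u ∈ W) (h1 : u ≠ 1) {S : Sylow s H}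
    (hS : u ∈ fix U (S : Subgroup H)) {K : Subgroup H} (hK : IsPGroup s K) (hf : u ∈ fix U K) :
    K ≤ S := fun x hx =>
  ((hK.inf_normalizer_sylow S).le ⟨hx, h.norm hu h1 hS (hf x hx)⟩).2

theorem comm_of_norm {t : ℕ} [Fact s.Prime] [Fact t.Prime] (hst : s ≠ t) {S D : Subgroup H} (hS : IsPGroup s S)
    [hn : D.Normal] (hD : IsPGroup t D) {x : H} (hx : x ∈ D) (h : x ∈ Subgroup.normalizer (S : Set H)) {y : H}
    (hy : y ∈ S) : y * x = x * y := by
  have h1 : x * y * x⁻¹ * y⁻¹ ∈ S ⊓ D := ⟨S.mul_mem ((Subgroup.mem_normalizer_iff.1 h y).1 hy) (S.inv_mem hy), by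
    have := mul_mem hx (hn.conj_mem _ (inv_mem hx) y)
    simpa [mul_assoc] using this⟩
  rw [(IsPGroup.disjoint_of_ne s t hst S D hS hD).eq_bot, Subgroup.mem_bot, mul_inv_eq_one,
    mul_inv_eq_iff_eq_mul] at h1
  exact h1.symm

theorem card_ne_one {X : Type*} [Group X] [Fintype X] (K : Subgroup X) [DecidablePred fun x => x ∈ K ∧ x ≠ 1] :
    (Finset.univ.filter fun x => x ∈ K ∧ x ≠ 1).card = Nat.card K - 1 := by
  classical
  rw [Nat.subtype_card (Finset.univ.filter (· ∈ K)) (by simp), ← Finset.card_erase_of_mem (a := 1) (by simp)]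
  congr 1; ext; simp [and_comm]

theorem NC.count [Finite H] [Finite U] {W : Subgroup U} (h : NC s H W) (S₀ : Sylow s H)
    (hW : ∀ S : Sylow s H, ∃ g : H, g • S₀ = S ∧ ∀ w, g • w ∈ W ↔ w ∈ W) :
    Nat.card W - 1 = Nat.card (Sylow s H) * (Nat.card (W ⊓ fix U (S₀ : Subgroup H) : Subgroup U) - 1) := by
  classical
  have := Fintype.ofFinite U
  have := Fintype.ofFinite (Sylow s H)
  rw [← card_ne_one, ← card_ne_one, Nat.card_eq_fintype_card, ← Finset.card_univ, ← smul_eq_mul, ← Finset.sum_const]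
  have e : (Finset.univ.filter fun x => x ∈ W ∧ x ≠ 1) = Finset.univ.biUnion fun S : Sylow s H =>
      Finset.univ.filter fun x => x ∈ W ⊓ fix U (S : Subgroup H) ∧ x ≠ 1 := by
    ext x
    simp only [Finset.mem_filter, Finset.mem_univ, true_and, Finset.mem_biUnion, Subgroup.mem_inf]
    exact ⟨fun ⟨a, b⟩ => let ⟨S, hS⟩ := (h x a b).exists; ⟨S, ⟨a, hS⟩, b⟩, fun ⟨_, ⟨a, _⟩, b⟩ => ⟨a, b⟩⟩
  rw [e, Finset.card_biUnion]
  · refine Finset.sum_congr rfl fun S _ => ?_
    obtain ⟨g, rfl, hg⟩ := hW S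
    refine (Finset.card_equiv (MulAction.toPerm g) fun x => ?_).symm
    simp [hg, smul_mem_fix, smul_one_iff]
  · intro S _ T _ hST
    refine Finset.disjoint_left.2 fun x hx hy => hST ?_
    simp only [Finset.mem_filter, Finset.mem_univ, true_and, Subgroup.mem_inf] at hx hy
    exact (h x hx.1.1 hx.2).unique hx.1.2 hy.1.2

theorem num_aux {l n a b : ℕ} (hl : l.Prime) (hn : 2 ≤ n) (ha : 0 < a) (h : l ^ a - 1 = n * (l ^ b - 1)) :
    (l : ℤ) ^ b ∣ n - 1 ∧ ¬ (l : ℤ) ^ (b + 1) ∣ n - 1 := by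
  have h1 : ∀ c, 1 ≤ l ^ c := fun c => Nat.one_le_pow _ _ hl.pos
  have h2 : 1 < l ^ a := Nat.one_lt_pow ha.ne' hl.one_lt
  have hb : 0 < b := Nat.pos_of_ne_zero (by rintro rfl; simp at h; omega)
  have h3 : 1 < l ^ b := Nat.one_lt_pow hb.ne' hl.one_lt
  have hab : b < a := (Nat.pow_lt_pow_iff_right hl.one_lt).1 (by
    have : 2 * (l ^ b - 1) ≤ n * (l ^ b - 1) := Nat.mul_le_mul_right _ hn
    omega)
  obtain ⟨c, rfl⟩ := Nat.exists_eq_add_of_lt hab
  zify [h1] at h
  have e : (n : ℤ) - 1 = l ^ b * (n - l ^ c * l) := by linear_combination h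
  refine ⟨⟨_, e⟩, fun h4 => ?_⟩
  have h5 : (l : ℤ) ∣ n - 1 := (dvd_pow_self _ (by omega)).trans h4
  rw [e, pow_succ] at h4
  have h6 := (mul_dvd_mul_iff_left (pow_ne_zero b (by exact_mod_cast hl.ne_zero))).1 h4
  have h7 : (l : ℤ) ∣ 1 := by
    have := dvd_sub (dvd_add h6 (dvd_mul_left (l : ℤ) (l ^ c))) h5
    simpa using this
  exact hl.one_lt.ne' (by exact_mod_cast Int.eq_one_of_dvd_one (by positivity) h7)

theorem num {l n a b c d : ℕ} (hl : l.Prime) (hn : 2 ≤ n) (ha : 0 < a) (hc : 0 < c)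
    (h1 : l ^ a - 1 = n * (l ^ b - 1)) (h2 : l ^ c - 1 = n * (l ^ d - 1)) : l ^ a = l ^ c := by
  obtain ⟨a1, a2⟩ := num_aux hl hn ha h1
  obtain ⟨b1, b2⟩ := num_aux hl hn hc h2
  obtain rfl : b = d := le_antisymm (by_contra fun h => b2 ((pow_dvd_pow _ (by omega)).trans a1))
    (by_contra fun h => a2 ((pow_dvd_pow _ (by omega)).trans b1))
  have := Nat.one_le_pow a _ hl.pos
  have := Nat.one_le_pow c _ hl.pos
  omega

/-- two modules with the property have the same order -/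
theorem card_eq {U' : Type*} [CommGroup U'] [MulDistribMulAction H U'] [Finite H] [Finite U] [Finite U'] {l : ℕ}
    [hl : Fact l.Prime] {W : Subgroup U} {W' : Subgroup U'} (hp : IsPGroup l W) (hp' : IsPGroup l W')
    (h : NC s H W) (h' : NC s H W') (h1 : W ≠ ⊥) (h1' : W' ≠ ⊥) (hn : Nontrivial (Sylow s H)) (S₀ : Sylow s H)
    (hW : ∀ S : Sylow s H, ∃ g : H, g • S₀ = S ∧ ∀ w, g • w ∈ W ↔ w ∈ W)
    (hW' : ∀ S : Sylow s H, ∃ g : H, g • S₀ = S ∧ ∀ w, g • w ∈ W' ↔ w ∈ W') : Nat.card W = Nat.card W' := by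
  have e := h.count S₀ hW
  have e' := h'.count S₀ hW'
  obtain ⟨a, ha⟩ := hp.exists_card_eq
  obtain ⟨c, hc⟩ := hp'.exists_card_eq
  obtain ⟨b, hb⟩ := (hp.to_inf_left (K := fix U (S₀ : Subgroup H))).exists_card_eq
  obtain ⟨d, hd⟩ := (hp'.to_inf_left (K := fix U' (S₀ : Subgroup H))).exists_card_eq
  rw [ha, hb] at e
  rw [hc, hd] at e'
  rw [ha, hc]
  refine num hl.out Finite.one_lt_card (Nat.pos_of_ne_zero ?_) (Nat.pos_of_ne_zero ?_) e e'
  · rintro rfl; exact h1 (Subgroup.eq_bot_of_card_eq _ ha)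
  · rintro rfl; exact h1' (Subgroup.eq_bot_of_card_eq _ hc)

theorem NC.nontrivial [Finite H] [Fact s.Prime] [FaithfulSMul H U] (h : NC s H (⊤ : Subgroup U))
    (hs : s ∣ Nat.card H) : Nontrivial (Sylow s H) := by
  by_contra hn
  rw [not_nontrivial_iff_subsingleton] at hn
  obtain ⟨S⟩ : Nonempty (Sylow s H) := inferInstance
  refine S.ne_bot_of_dvd_card hs ((Subgroup.eq_bot_iff_forall _).2 fun x hx => ?_)
  refine eq_of_smul_eq_smul (α := U) fun u => ?_
  by_cases h1 : u = 1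
  · simp [h1]
  · obtain ⟨T, hT⟩ := (h u trivial h1).exists
    rw [one_smul, hT x (Subsingleton.elim S T ▸ hx)]

theorem NC.irr [Finite H] [Finite U] [Fact s.Prime] [FaithfulSMul H U] {l : ℕ} [Fact l.Prime] (hU : IsPGroup l U)
    (h : NC s H (⊤ : Subgroup U)) (hs : s ∣ Nat.card H) (L : Subgroup H) [hL : L.Normal] (S₀ : Sylow s H)
    (h0 : (S₀ : Subgroup H) ≤ L) (W : Subgroup U) (hW : ∀ g ∈ L, ∀ w ∈ W, g • w ∈ W) (h1 : W ≠ ⊥) : W = ⊤ := by
  have key : ∀ S : Sylow s H, ∃ g ∈ L, g • S₀ = S := fun S => by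
    obtain ⟨c, rfl⟩ := MulAction.exists_smul_eq H S₀ S
    have h2 : ((c • S₀ : Sylow s H) : Subgroup H) ≤ L := fun x hx => by
      rw [Sylow.coe_subgroup_smul, Subgroup.mem_pointwise_smul_iff_inv_smul_mem] at hx
      simpa [mul_assoc] using hL.conj_mem _ (h0 hx) c
    obtain ⟨g, hg⟩ := MulAction.exists_smul_eq L (S₀.subtype h0) ((c • S₀).subtype h2)
    rw [Sylow.smul_subtype] at hg
    exact ⟨g, g.2, Sylow.subtype_injective hg⟩
  refine Subgroup.eq_top_of_card_eq _ ((card_eq (hU.to_subgroup W) (hU.to_subgroup ⊤) (fun u _ => h u trivial) h h1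
    (fun e => h1 (eq_bot_iff.2 (e ▸ le_top))) (h.nontrivial hs) S₀ (fun S => ?_) fun S => ?_).trans Subgroup.card_top)
  · obtain ⟨g, hg, e⟩ := key S
    exact ⟨g, e, fun w => ⟨fun hw => by simpa using hW _ (inv_mem hg) _ hw, hW g hg w⟩⟩
  · obtain ⟨g, -, e⟩ := key S
    exact ⟨g, e, fun w => by simp⟩

/-- Schur and Wedderburn -/
theorem schur [Finite H] [Finite U] [Nontrivial U] [FaithfulSMul H U] (L B : Subgroup H)
    (hirr : ∀ W : Subgroup U, (∀ g ∈ L, ∀ w ∈ W, g • w ∈ W) → W ≠ ⊥ → W = ⊤)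
    (hB : ∀ b ∈ B, ∀ g ∈ L, g * b = b * g) : IsCyclic B := by
  let φ : H →* AddMonoid.End (Additive U) :=
    (monoidEndToAdditive U).toMonoidHom.comp (MulDistribMulAction.toMonoidEnd H U)
  have hφ : ∀ g (u : U), φ g (Additive.ofMul u) = Additive.ofMul (g • u) := fun _ _ => rfl
  let R := Subring.centralizer (φ '' L)
  have : Finite (AddMonoid.End (Additive U)) := DFunLike.finite (F := Additive U →+ Additive U)
  have : Nontrivial (AddMonoid.End (Additive U)) := by
    obtain ⟨u, hu⟩ := exists_ne (0 : Additive U)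
    exact ⟨1, 0, fun e => hu (DFunLike.congr_fun e u)⟩
  have : NoZeroDivisors R := ⟨fun {a b} hab => by
    by_contra hc
    push Not at hc
    let W : Subgroup U :=
      { carrier := {u | a.1 (Additive.ofMul u) = 0}
        mul_mem' := fun {x y} hx hy => by
          change a.1 (Additive.ofMul x + Additive.ofMul y) = 0
          rw [map_add, hx, hy, add_zero]
        one_mem' := map_zero a.1
        inv_mem' := fun {x} hx => by
          change a.1 (-Additive.ofMul x) = 0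
          rw [map_neg, hx, neg_zero] }
    have h1 := hirr W (fun g hg w hw => by
      change a.1 _ = 0
      have := DFunLike.congr_fun (a.2 _ ⟨g, hg, rfl⟩) (Additive.ofMul w)
      rw [← hφ]
      exact this.symm.trans ((congrArg (φ g) hw).trans (map_zero _))) fun e => hc.2 (Subtype.ext (AddMonoidHom.ext fun u => by
        have : Additive.toMul (b.1 u) ∈ W := DFunLike.congr_fun (congrArg Subtype.val hab) u
        rw [e] at this
        exact this))
    exact hc.1 (Subtype.ext (AddMonoidHom.ext fun u => (h1.ge trivial : Additive.toMul u ∈ W)))⟩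
  have : IsDomain R := NoZeroDivisors.to_isDomain R
  let := (Finite.isDomain_to_isField R).toField
  let f : B →* R := (φ.comp B.subtype).codRestrict R fun b => by
    rintro _ ⟨g, hg, rfl⟩
    change φ g * φ b = φ b * φ g
    rw [← map_mul, hB b b.2 g hg, map_mul]
  refine isCyclic_of_injective_ringHom f fun a b e => Subtype.ext (eq_of_smul_eq_smul (α := U) fun u => ?_)
  exact DFunLike.congr_fun (congrArg Subtype.val e) (Additive.ofMul u)

/-- semiregular action -/
def Semi (U : Type*) [CommGroup U] [MulDistribMulAction H U] (B : Subgroup H) : Prop :=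
  ∀ b ∈ B, ∀ u : U, b • u = u → u ≠ 1 → b = 1

theorem Semi.fpf [Finite H] [Finite U] [Nontrivial U] {B : Subgroup H} (h : Semi U B) : H24.Fpf B :=
  H24.fpf_of_mulAut (MulDistribMulAction.toMulAut B U) fun g hg k hk =>
    by_contra fun h1 => hg (Subtype.ext (h g g.2 k hk h1))

/-- abelian normal subgroups act semiregularly -/
theorem NC.semi [Finite H] [Finite U] [Nontrivial U] [hs : Fact s.Prime] [FaithfulSMul H U] {l : ℕ} [Fact l.Prime]
    (hU : IsPGroup l U) (h : NC s H (⊤ : Subgroup U)) (hd : s ∣ Nat.card H) (h2 : s ≠ 2) (E : Subgroup H)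
    [hE : E.Normal] (hc : ∀ a ∈ E, ∀ b ∈ E, a * b = b * a) : Semi U E := by
  let st : U → Subgroup H := fun v => E ⊓ MulAction.stabilizer H v
  have ms : ∀ {x v}, x ∈ st v ↔ x ∈ E ∧ x • v = v := Iff.rfl
  let Gd : U → Prop := fun u => u ≠ 1 ∧ ∀ v, v ≠ 1 → Nat.card (st v) ≤ Nat.card (st u)
  have gs : ∀ {u} (g : H), Gd u → Gd (g • u) := fun {u} g hu => ⟨by simpa [smul_one_iff] using hu.1, fun v hv => (hu.2 v hv).trans
    (Nat.card_le_card_of_injective (fun e : st u => (⟨g * e * g⁻¹, ms.2 ⟨hE.conj_mem _ e.2.1 g, by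
      rw [mul_smul, inv_smul_smul, mul_smul, (ms.1 e.2).2]⟩⟩ : st (g • u)))
      fun a b e => Subtype.ext (by simpa using e))⟩
  have k : ∀ {u v}, Gd u → v ≠ 1 → st u ≤ st v → st u = st v := fun hu hv hle =>
    Subgroup.eq_of_le_of_card_ge hle (hu.2 _ hv)
  let δ : H → U →* U := fun e => MulDistribMulAction.toMonoidHom U e / MonoidHom.id U
  have δ1 : ∀ e v, δ e v = e • v / v := fun _ _ => rfl
  have δs : ∀ e ∈ E, ∀ v, st v ≤ st (δ e v) := fun e he v x hx => ms.2 ⟨hx.1, by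
    rw [δ1, smul_div', ← mul_smul, hc x hx.1 e he, mul_smul, (ms.1 hx).2]⟩
  have δ0 : ∀ e ∈ E, ∀ v, δ e v = 1 ↔ e ∈ st v := fun e he v => by
    rw [δ1, div_eq_one]; exact ⟨fun h => ⟨he, h⟩, fun h => h.2⟩
  have si : ∀ v, st v⁻¹ = st v := fun v => by ext x; simp [st]
  have sd : ∀ a b, st a = st b → st a ≤ st (a / b) := fun a b e x hx => ms.2 ⟨hx.1, by
    rw [smul_div', (ms.1 hx).2, (ms.1 (e.le hx)).2]⟩
  have A : ∀ {a b c d}, Gd a → Gd b → Gd c → Gd d → a * b = c * d → st c ≠ st d → st c = st a ∨ st c = st b := by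
    intro a b c d ha hb hc' hd' e hcd
    by_contra hn
    push Not at hn
    obtain ⟨x, hx, hx'⟩ := SetLike.not_le_iff_exists.1 fun h => hn.1 (k ha hc'.1 h).symm
    obtain ⟨y, hy, hy'⟩ := SetLike.not_le_iff_exists.1 fun h => hn.2 (k hb hc'.1 h).symm
    have h1 : δ y c ≠ 1 := fun h => hy' ((δ0 y hy.1 c).1 h)
    have h3 := k hc' h1 (δs y hy.1 c)
    have h4 : δ x (δ y c) ≠ 1 := fun h => hx' (h3 ▸ (δ0 x hx.1 _).1 h)
    have h5 := congrArg (fun v => δ x (δ y v)) e
    simp only [map_mul] at h5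
    rw [(δ0 y hy.1 b).2 hy, (δ0 x hx.1 _).2 (δs y hy.1 a hx), map_one, mul_one, eq_comm, mul_eq_one_iff_eq_inv] at h5
    exact hcd ((k hc' h4 (h3.le.trans (δs x hx.1 _))).trans (k hd' h4 (by
      rw [h5, si]; exact (δs y hy.1 d).trans (δs x hx.1 _))).symm)
  have B : ∀ {a b c d}, Gd a → Gd b → st a ≠ st b → a * b = c * d → st c = st a → st d = st b → c = a := by
    intro a b c d ha hb hab e h1 h3
    by_contra hn
    have h4 : a / c ≠ 1 := fun h => hn (div_eq_one.1 h).symm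
    have h5 : a / c = d / b := by rw [div_eq_div_iff_mul_eq_mul, e, mul_comm]
    exact hab ((k ha h4 (sd _ _ h1.symm)).trans (k hb h4 (by rw [h5, ← h3]; exact sd _ _ h3)).symm)
  have C : ∀ {a b}, Gd a → Gd b → st a ≠ st b → ∃ S : Sylow s H, a ∈ fix U (S : Subgroup H) ∧ b ∈ fix U (S : Subgroup H) := by
    intro a b ha hb hab
    obtain ⟨S, hS⟩ := (h (a * b) trivial fun e => hab (by rw [eq_inv_of_mul_eq_one_left e, si])).exists
    have h1 : a ∈ fix U (S : Subgroup H) := fun g hg => by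
      have e : a * b = g • a * g • b := by rw [← smul_mul', hS g hg]
      have hcd : st (g • a) ≠ st (g • b) := fun e => hab (k ha hb.1 fun x hx => ms.2 ⟨hx.1, by
        have : g * x * g⁻¹ ∈ st (g • a) := ms.2 ⟨hE.conj_mem _ hx.1 g, by
          rw [mul_smul, inv_smul_smul, mul_smul, (ms.1 hx).2]⟩
        have := (ms.1 (e.le this)).2
        rwa [mul_smul, inv_smul_smul, mul_smul, smul_left_cancel_iff] at this⟩)
      have e1 := A ha hb (gs g ha) (gs g hb) e hcd
      have e2 := A ha hb (gs g hb) (gs g ha) (e.trans (mul_comm _ _)) hcd.symm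
      rcases e1 with e1 | e1
      · exact B ha hb hab e e1 (e2.resolve_left fun h => hcd (e1.trans h.symm))
      · have e3 := e2.resolve_right fun h => hcd (e1.trans h.symm)
        have e4 := B ha hb hab (e.trans (mul_comm _ _)) e3 e1
        have e5 : g • a = b := by rw [e4, mul_comm, mul_left_inj] at e; exact e.symm
        obtain ⟨j, hj⟩ := S.isPGroup' ⟨g, hg⟩
        obtain ⟨m, hm⟩ := (hs.out.odd_of_ne_two h2).pow (n := j)
        have h3 : g ^ (2 * m + 1) = 1 := by rw [← hm]; exact congrArg Subtype.val hj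
        have h4 : g ^ 2 ∈ MulAction.stabilizer H a := by rw [MulAction.mem_stabilizer_iff, sq, mul_smul, e5, e4]
        have h5 := inv_mem (pow_mem h4 m)
        rwa [← pow_mul, inv_eq_of_mul_eq_one_right (by rw [← pow_succ, h3])] at h5
    exact ⟨S, h1, by simpa using mul_mem (inv_mem h1) hS⟩
  obtain ⟨a, ha⟩ : ∃ a, Gd a := by
    obtain ⟨u, hu⟩ := exists_ne (1 : U)
    have : Nonempty {v : U // v ≠ 1} := ⟨⟨u, hu⟩⟩
    obtain ⟨a, ha⟩ := Finite.exists_max fun v : {v : U // v ≠ 1} => Nat.card (st v)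
    exact ⟨a, a.2, fun v hv => ha ⟨v, hv⟩⟩
  by_cases hb : ∃ b, Gd b ∧ st a ≠ st b
  · exfalso
    obtain ⟨b, hb, hab⟩ := hb
    obtain ⟨S, h1, h3⟩ := C ha hb hab
    have := h.nontrivial hd
    obtain ⟨T, hT⟩ := exists_ne S
    obtain ⟨g, rfl⟩ := MulAction.exists_smul_eq H S T
    have h4 := (smul_mem_fix g S a).2 h1
    refine hT ((h _ trivial (gs g ha).1).unique h4 ?_)
    by_cases e : st (g • a) = st a
    · obtain ⟨T, a1, a2⟩ := C (gs g ha) hb (e ▸ hab)
      rwa [(h b trivial hb.1).unique h3 a2]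
    · obtain ⟨T, a1, a2⟩ := C (gs g ha) ha e
      rwa [(h a trivial ha.1).unique h1 a2]
  · push Not at hb
    obtain ⟨S⟩ : Nonempty (Sylow s H) := inferInstance
    have h1 := h.irr hU hd ⊤ S le_top (fix U (st a)) (fun g _ w hw => by
      by_cases h1 : w = 1
      · simp [h1]
      · have h3 := k ha h1 fun x hx => ⟨hx.1, hw x hx⟩
        exact fun x hx => ((hb _ (gs g ⟨h1, h3 ▸ ha.2⟩)).le hx).2)
      (fun e => ha.1 (e.le fun x hx => hx.2))
    have h3 : st a = ⊥ := (Subgroup.eq_bot_iff_forall _).2 fun x hx =>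
      eq_of_smul_eq_smul (α := U) fun u => by rw [one_smul, h1.ge trivial x hx]
    intro b hb u hu h4
    have := ha.2 u h4
    rw [h3, Subgroup.card_bot] at this
    exact (Subgroup.eq_bot_of_card_le _ this).le (⟨hb, hu⟩ : b ∈ st u)

end Cfsg.Agent.H97.Pal
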