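import Cfsg.Agent.H97.Pal1
import Cfsg.Agent.H3.ClassTwo
import Cfsg.Agent.S0127

/-! A minimal noncyclic normal subgroup of prime power order. -/

set_option autoImplicit false

namespace Cfsg.Agent.H97.Pal

open Subgroup
open scoped Pointwise commutatorElement

variable {H U : Type*} [Group H] [CommGroup U] [MulDistribMulAction H U]

theorem comm_cent {N : Subgroup H} [Finite H] [N.Normal] (h : IsCyclic N) :
    _root_.commutator H ≤ centralizer (N : Set H) := by
  let _ := (h.mulAutMulEquiv _).toMonoidHom.commGroupOfInjective (h.mulAutMulEquiv _).injective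
  intro g hg x hx
  have := Abelianization.commutator_subset_ker (MulAut.conjNormal (H := N)) hg
  have h1 := congrArg Subtype.val (DFunLike.congr_fun (MonoidHom.mem_ker.1 this) ⟨x, hx⟩)
  exact (mul_inv_eq_iff_eq_mul.1 h1).symm

theorem cyc_comm {K : Subgroup H} (h : IsCyclic K) : ∀ a ∈ K, ∀ b ∈ K, a * b = b * a := fun a ha b hb =>
  congrArg Subtype.val (h.isMulCommutative.is_comm.comm ⟨a, ha⟩ ⟨b, hb⟩)

theorem cent_two [Finite H] {K : Subgroup H} [K.Normal] (h : IsCyclic K) (hK : IsPGroup 2 K) {g : H}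
    (hg : (orderOf g).Coprime 2) : g ∈ centralizer (K : Set H) := fun x hx => by
  have := H24.mulAut_eq_one_of_isCyclic hK (MulAut.conjNormal g) (H4.coprime_orderOf_map _ hg)
  exact (mul_inv_eq_iff_eq_mul.1 (congrArg Subtype.val (DFunLike.congr_fun this ⟨x, hx⟩))).symm

theorem cop_of_mem {q t : ℕ} [hq : Fact q.Prime] [ht : Fact t.Prime] (h : q ≠ t) {S : Subgroup H} (hS : IsPGroup q S)
    {g : H} (hg : g ∈ S) : (orderOf g).Coprime t := by
  obtain ⟨k, hk⟩ := hS ⟨g, hg⟩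
  exact (((Nat.coprime_primes hq.out ht.out).2 h).pow_left k).coprime_dvd_left
    (orderOf_dvd_of_pow_eq_one (congrArg Subtype.val hk))

/-- the configuration -/
structure Cf (U : Type*) [CommGroup U] [MulDistribMulAction H U] (q t : ℕ) (D : Subgroup H) (x : H) (u : U) : Prop where
  ne : q ≠ t
  nc : NC q H (⊤ : Subgroup U)
  pD : IsPGroup t D
  cent : ∀ S : Sylow q H, ¬ (S : Subgroup H) ≤ centralizer (D : Set H)
  min : ∀ K : Subgroup H, K.Normal → K ≤ D → K ≠ D → IsCyclic K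
  semi : ∀ E : Subgroup H, E.Normal → (∀ a ∈ E, ∀ b ∈ E, a * b = b * a) → Semi U E
  xD : x ∈ D
  x1 : x ≠ 1
  xt : x ^ t = 1
  u1 : u ≠ 1
  xu : x • u = u

variable {q t : ℕ} [hq : Fact q.Prime] [ht : Fact t.Prime] {D : Subgroup H} [hD : D.Normal] {x : H} {u : U} [Finite H]

omit hq ht hD [Finite H] in
theorem Cf.eq (h : Cf U q t D x u) (K : Subgroup H) (hK : K.Normal) (h1 : K ≤ D) (hx : x ∈ K) : K = D :=
  by_contra fun e => h.x1 (h.semi K hK (cyc_comm (h.min K hK h1 e)) x hx u h.xu h.u1)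

theorem Cf.class2 (h : Cf U q t D x u) : ∀ a ∈ D, ∀ b ∈ D, ∀ c ∈ D, Commute c ⁅a, b⁆ := by
  have hD' : IsCyclic (⁅D, D⁆ : Subgroup H) := h.min _ inferInstance (commutator_le_left D D) fun e => by
    have := h.pD.isNilpotent
    have : Nontrivial D := (nontrivial_iff_exists_ne_one D).2 ⟨x, h.xD, h.x1⟩
    refine (Group.IsSolvable.commutator_lt_top_of_nontrivial D).ne (map_injective D.subtype_injective ?_)
    rw [map_subtype_commutator, e, ← MonoidHom.range_eq_map, range_subtype]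
  let C := D ⊓ centralizer ((⁅D, D⁆ : Subgroup H) : Set H)
  by_cases hx : x ∈ C
  · exact fun a ha b hb c hc => (((h.eq C inferInstance inf_le_left hx).ge hc).2 _ (commutator_mem_commutator ha hb)).symm
  exfalso
  have hC := h.min C inferInstance inf_le_left fun e => hx (e.ge h.xD)
  have h1 : ∀ g, ∀ d ∈ D, d⁻¹ * (g * d * g⁻¹) ∈ C := fun g d hd =>
    ⟨D.mul_mem (inv_mem hd) (hD.conj_mem d hd g), comm_cent hD' (by
      rw [_root_.commutator_def]
      simpa [commutatorElement_def, mul_assoc] using commutator_mem_commutator (mem_top d⁻¹) (mem_top g))⟩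
  have pC : IsPGroup t C := h.pD.to_le inf_le_left
  by_cases h2 : t = 2
  · subst h2
    obtain ⟨S⟩ : Nonempty (Sylow q H) := inferInstance
    exact h.cent S fun g hg => H4.mem_centralizer_of_stabilizes pC (cop_of_mem h.ne S.isPGroup' hg)
      (cent_two hC pC (cop_of_mem h.ne S.isPGroup' hg)) (h1 g)
  have hle : C ⊔ zpowers x ≤ D := sup_le inf_le_left (zpowers_le.2 h.xD)
  have h3 := h.eq (C ⊔ zpowers x) ⟨fun n hn g => by
    simpa using mul_mem hn (mem_sup_left (h1 g n (hle hn)))⟩ hle (mem_sup_right (mem_zpowers x))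
  have h4 : (C.subgroupOf D).index = t := by
    change C.relIndex D = t
    rw [← h3, relIndex_sup_left]
    have h5 := (C.subgroupOf (zpowers x)).index_dvd_card
    rw [Nat.card_zpowers, orderOf_eq_prime h.xt h.x1, Nat.dvd_prime ht.out] at h5
    exact h5.resolve_left fun e => hx (relIndex_eq_one.1 e (mem_zpowers x))
  have h5 := (S0127.result h2 h.pD (fun e => h.x1 (h.semi D hD (cyc_comm e) x h.xD u h.xu h.u1)) _
    (isCyclic_of_surjective _ (subgroupOfEquivOfLe (inf_le_left : C ≤ D)).symm.surjective) h4).1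
  have h6 : ∀ y, y ∈ (closure {y : D | y ^ t = 1}).map D.subtype ↔ y ∈ D ∧ y ^ t = 1 := fun y =>
    ⟨fun ⟨a, ha, e⟩ => e ▸ ⟨a.2, congrArg Subtype.val (h5.2 a ha)⟩,
      fun e => ⟨⟨y, e.1⟩, subset_closure (Subtype.ext e.2), rfl⟩⟩
  refine h.x1 (h.semi _ ⟨fun n hn g => (h6 _).2 ⟨hD.conj_mem _ ((h6 _).1 hn).1 g, by
    rw [conj_pow, ((h6 _).1 hn).2]; simp⟩⟩ ?_ x ((h6 _).2 ⟨h.xD, h.xt⟩) u h.xu h.u1)
  rintro _ ⟨a, ha, rfl⟩ _ ⟨b, hb, rfl⟩
  exact congrArg (fun y => (y.1.1 : H)) (h5.1.is_comm.comm ⟨a, ha⟩ ⟨b, hb⟩)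

theorem Cf.pow (h : Cf U q t D x u) : ∀ a ∈ D, ∀ b ∈ D, ⁅a, b⁆ ^ t = 1 := by
  have c := h.class2
  let K : Subgroup H :=
    { carrier := {a | a ∈ D ∧ ∀ b ∈ D, ⁅a, b⁆ ^ t = 1}
      mul_mem' := fun {a b} ha hb => ⟨mul_mem ha.1 hb.1, fun y hy => by
        rw [H3.commutator_mul_left_of_commute (c _ hb.1 _ hy _ ha.1),
          (c _ ha.1 _ hy _ (commutator_le_left D D (commutator_mem_commutator hb.1 hy))).mul_pow, ha.2 y hy,
          hb.2 y hy, one_mul]⟩
      one_mem' := ⟨one_mem _, by simp⟩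
      inv_mem' := fun {a} ha => ⟨inv_mem ha.1, fun y hy => by
        rw [H3.commutator_inv_left_of_commute (c _ ha.1 _ hy _ ha.1), inv_pow, ha.2 y hy, inv_one]⟩ }
  exact fun a ha => ((h.eq K ⟨fun n hn g => ⟨hD.conj_mem _ hn.1 g, fun b hb => by
    have : ⁅g * n * g⁻¹, b⁆ = g * ⁅n, g⁻¹ * b * g⁆ * g⁻¹ := by simp only [commutatorElement_def]; group
    rw [this, conj_pow, hn.2 _ (by simpa using hD.conj_mem _ hb g⁻¹)]; simp⟩⟩ (fun _ e => e.1)
    ⟨h.xD, fun b hb => by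
      rw [← H3.commutator_pow_left_of_commute (c _ h.xD _ hb _ h.xD), h.xt, commutatorElement_one_left]⟩).ge ha).2

theorem Cf.exp (h : Cf U q t D x u) (h2 : t ≠ 2) : ∀ a ∈ D, a ^ t = 1 := by
  have c := h.class2
  let K : Subgroup H :=
    { carrier := {a | a ∈ D ∧ a ^ t = 1}
      mul_mem' := fun {a b} ha hb => ⟨mul_mem ha.1 hb.1, by
        rw [H3.mul_pow_of_odd_of_commute_commutator (c _ hb.1 _ ha.1 _ ha.1) (c _ hb.1 _ ha.1 _ hb.1)
          (ht.out.odd_of_ne_two h2) (h.pow _ hb.1 _ ha.1), ha.2, hb.2, one_mul]⟩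
      one_mem' := ⟨one_mem _, one_pow _⟩
      inv_mem' := fun {a} ha => ⟨inv_mem ha.1, by rw [inv_pow, ha.2, inv_one]⟩ }
  exact fun a ha => ((h.eq K ⟨fun n hn g => ⟨hD.conj_mem _ hn.1 g, by rw [conj_pow, hn.2]; simp⟩⟩ (fun _ e => e.1)
    ⟨h.xD, h.xt⟩).ge ha).2

theorem Cf.ncent (h : Cf U q t D x u) (S : Sylow q H) :
    ¬ ∀ g ∈ (S : Subgroup H), ∀ a ∈ D, a * x = x * a → a * g = g * a := fun e => h.cent S fun g hg =>
  H4.mem_centralizer_of_centralizer_le (H := D ⊓ centralizer {x}) h.pD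
    (fun a ha => ⟨ha.1, mem_centralizer_singleton_iff.2 (ha.2 x ⟨h.xD, mem_centralizer_singleton_iff.2 rfl⟩).symm⟩)
    inf_le_left (cop_of_mem h.ne S.isPGroup' hg) (by rw [normalizer_eq_top]; trivial)
    fun a ha => e g hg a ha.1 (mem_centralizer_singleton_iff.1 ha.2)

omit hq ht hD [Finite H] in
theorem Cf.semiZ (h : Cf U q t D x u) [D.Normal] : Semi U (D ⊓ centralizer (D : Set H)) :=
  h.semi _ inferInstance fun a ha _ hb => hb.2 a ha.1

theorem Cf.commZ (h : Cf U q t D x u) {a b : H} (ha : a ∈ D) (hb : b ∈ D) : ⁅a, b⁆ ∈ D ⊓ centralizer (D : Set H) :=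
  ⟨commutator_le_left D D (commutator_mem_commutator ha hb), fun c hc => h.class2 a ha b hb c hc⟩

/-- the norm map of a cyclic group -/
noncomputable def nrm (y : H) (v : U) : U := ∏ᶠ b : zpowers y, (b : H) • v

theorem smul_nrm {y g : H} (hg : g ∈ normalizer (zpowers y : Set H)) (v : U) : g • nrm y v = nrm y (g • v) := by
  have := Fintype.ofFinite (zpowers y)
  rw [nrm, nrm, finprod_eq_prod_of_fintype, finprod_eq_prod_of_fintype, Finset.smul_prod']
  refine Fintype.prod_equiv ((zpowers y).normalizerMonoidHom ⟨g, hg⟩).toEquiv _ _ fun b => ?_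
  change _ = (g * b * g⁻¹) • g • v
  rw [mul_smul, inv_smul_smul, mul_smul]

theorem self_nrm (y : H) (v : U) : y • nrm y v = nrm y v := by
  have := Fintype.ofFinite (zpowers y)
  rw [nrm, finprod_eq_prod_of_fintype, Finset.smul_prod']
  exact Fintype.prod_equiv (Equiv.mulLeft ⟨y, mem_zpowers y⟩) _ _ fun b => (mul_smul _ _ _).symm

theorem nrm_prod {ι : Type*} [Fintype ι] (y : H) (f : ι → U) : nrm y (∏ i, f i) = ∏ i, nrm y (f i) := by
  have := Fintype.ofFinite (zpowers y)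
  simp only [nrm, finprod_eq_prod_of_fintype, Finset.smul_prod']
  exact Finset.prod_comm

theorem nrm_fix {y : H} {v : U} (h : y • v = v) : nrm y v = v ^ orderOf y := by
  have := Fintype.ofFinite (zpowers y)
  rw [nrm, finprod_eq_prod_of_fintype, Finset.prod_congr rfl fun (b : zpowers y) _ =>
    (zpowers_le.2 (show y ∈ MulAction.stabilizer H v from h) b.2 : (b : H) • v = v), Finset.prod_const,
    Finset.card_univ, ← Nat.card_eq_fintype_card, Nat.card_zpowers]

theorem Cf.false [Finite U] (h : Cf U q t D x u)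
    (hA : ∀ a ∈ D, ∀ b ∈ D, a * x = x * a → b * x = x * b → a * b = b * a) : False := by
  have c := h.class2
  have : Nontrivial U := ⟨u, 1, h.u1⟩
  let Z := D ⊓ centralizer (D : Set H)
  obtain ⟨y₀, hy₀, hz⟩ : ∃ y ∈ D, ⁅y, x⁆ ≠ 1 := by
    by_contra e
    push Not at e
    exact h.x1 (h.semiZ x ⟨h.xD, fun y hy => commutatorElement_eq_one_iff_mul_comm.1 (e y hy)⟩ u h.xu h.u1)
  have hz0 := h.commZ hy₀ h.xD
  have hzo := orderOf_eq_prime (h.pow _ hy₀ _ h.xD) hz
  have hzp : ∀ w ∈ Z, w ^ t = 1 → ∃ j : ℤ, ⁅y₀, x⁆ ^ j = w := fun w hw e => by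
    obtain ⟨j, hj⟩ := h.semiZ.fpf.mem_zpowers_of_commute (x := ⟨w, hw⟩) (z := ⟨_, hz0⟩)
      (Subtype.ext (hz0.2 w hw.1)) (Subtype.ext (by rw [orderOf_mk, hzo]; exact e))
    exact ⟨j, congrArg Subtype.val hj⟩
  have hAZ : ∀ a ∈ D, a * x = x * a → ∃ j : ℤ, a * x ^ j ∈ Z := fun a ha e => by
    obtain ⟨j, hj⟩ := hzp _ (h.commZ hy₀ ha) (h.pow _ hy₀ _ ha)
    have ha' : a * x ^ (-j) ∈ D := mul_mem ha (zpow_mem h.xD _)
    have e1 : a * x ^ (-j) * x = x * (a * x ^ (-j)) := (Commute.mul_left e ((Commute.refl x).zpow_left _)).eq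
    have e2 : Commute y₀ (a * x ^ (-j)) := by
      rw [← commutatorElement_eq_one_iff_commute, H3.commutator_mul_right_of_commute (c _ hy₀ _ (zpow_mem h.xD _) _ ha),
        H3.commutator_zpow_right_of_commute (c _ hy₀ _ h.xD _ h.xD), ← hj, zpow_neg, mul_inv_cancel]
    refine ⟨-j, ha', fun d hd => ?_⟩
    obtain ⟨i, hi⟩ := hzp _ (h.commZ hd h.xD) (h.pow _ hd _ h.xD)
    have e3 : Commute (d * y₀ ^ (-i)) (a * x ^ (-j)) := hA _ (mul_mem hd (zpow_mem hy₀ _)) _ ha' (by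
      rw [← commutatorElement_eq_one_iff_mul_comm,
        H3.commutator_mul_left_of_commute (c _ (zpow_mem hy₀ _) _ h.xD _ hd),
        H3.commutator_zpow_left_of_commute (c _ hy₀ _ h.xD _ hy₀), ← hi, zpow_neg, inv_mul_cancel]) e1
    simpa using (e3.mul_left (e2.zpow_left i)).eq
  obtain ⟨S, hS⟩ := (h.nc u trivial h.u1).exists
  have hSx : ∀ g ∈ (S : Subgroup H), g * x = x * g := fun g hg =>
    comm_of_norm h.ne S.isPGroup' h.pD h.xD (h.nc.norm trivial h.u1 hS h.xu) hg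
  obtain ⟨g, hg, w, hw, hgw⟩ : ∃ g ∈ (S : Subgroup H), ∃ w ∈ Z, ¬ Commute w g := by
    by_contra e
    push Not at e
    refine h.ncent S fun g hg a ha e1 => ?_
    obtain ⟨j, hj⟩ := hAZ a ha e1
    simpa using ((e g hg _ hj).mul_left (Commute.zpow_left (hSx g hg).symm (-j))).eq
  have h2 : t ≠ 2 := by
    rintro rfl
    have : IsMulCommutative Z := ⟨⟨fun a b => Subtype.ext (b.2.2 a a.2.1)⟩⟩
    exact hgw (cent_two h.semiZ.fpf.isCyclic_of_comm (h.pD.to_le inf_le_left) (cop_of_mem h.ne S.isPGroup' hg) w hw)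
  have ex := h.exp h2
  have hgz : ¬ Commute ⁅y₀, x⁆ g := fun e => by
    obtain ⟨j, rfl⟩ := hzp w hw (ex w hw.1)
    exact hgw (e.zpow_left j)
  obtain ⟨a, ha⟩ := hzp _ ((inferInstance : Z.Normal).conj_mem _ hz0 g) (ex _ (hD.conj_mem _ hz0.1 g))
  obtain ⟨k, hk⟩ := S.isPGroup' ⟨g, hg⟩
  replace hk : g ^ q ^ k = 1 := congrArg Subtype.val hk
  have hd : (t : ℤ) ∣ a ^ q ^ k - 1 := by
    have : ∀ n : ℕ, ⁅y₀, x⁆ ^ a ^ n = g ^ n * ⁅y₀, x⁆ * (g ^ n)⁻¹ := fun n => by
      induction n with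
      | zero => simp
      | succ n ih => rw [pow_succ, zpow_mul, ih, conj_zpow, ha]; group
    rw [← hzo, orderOf_dvd_sub_iff_zpow_eq_zpow, this, hk]; simp
  let X := {d : H // d ∈ D ∧ ⁅d, x⁆ = ⁅y₀, x⁆}
  let ψ : X → X := fun d => ⟨g⁻¹ * d.1 ^ a * g, by simpa using hD.conj_mem _ (zpow_mem d.2.1 a) g⁻¹, by
    have : ⁅g⁻¹ * d.1 ^ a * g, x⁆ = g⁻¹ * ⁅d.1 ^ a, g * x * g⁻¹⁆ * g := by simp only [commutatorElement_def]; group
    rw [this, hSx g hg, mul_inv_cancel_right, H3.commutator_zpow_left_of_commute (c _ d.2.1 _ h.xD _ d.2.1), d.2.2, ha]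
    group⟩
  have hψ : ∀ (n : ℕ) (d : X), (ψ^[n] d).1 = (g ^ n)⁻¹ * d.1 ^ a ^ n * g ^ n := fun n d => by
    induction n with
    | zero => simp
    | succ n ih =>
      rw [Function.iterate_succ_apply']
      change g⁻¹ * (ψ^[n] d).1 ^ a * g = _
      have := conj_zpow (i := a) (a := (g ^ n)⁻¹) (b := d.1 ^ a ^ n)
      rw [inv_inv] at this
      rw [ih, this, ← zpow_mul]; group
  have hψ1 : ψ^[q ^ k] = id := funext fun d => Subtype.ext (by
    obtain ⟨m, hm⟩ := hd
    rw [hψ, hk, sub_eq_iff_eq_add.1 hm, zpow_add, zpow_mul, zpow_natCast, ex _ d.2.1]; simp)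
  have hinj : Function.Injective ψ := by
    obtain ⟨n, hn⟩ := Nat.exists_eq_succ_of_ne_zero (pow_ne_zero k hq.out.ne_zero)
    rw [hn, Function.iterate_succ] at hψ1
    exact Function.Injective.of_comp (hψ1 ▸ Function.injective_id)
  classical
  have := Fintype.ofFinite X
  obtain ⟨⟨y, hy, hyx⟩, e⟩ := Equiv.Perm.exists_fixed_point_of_prime (p := q) (n := k)
    (σ := Equiv.ofBijective ψ hinj.bijective_of_finite) (by
      have e : (D ⊓ centralizer {x} : Subgroup H) ≃ X :=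
        { toFun := fun b => ⟨b * y₀, mul_mem b.2.1 hy₀, by
            rw [H3.commutator_mul_left_of_commute (c _ hy₀ _ h.xD _ b.2.1),
              commutatorElement_eq_one_iff_mul_comm.2 (mem_centralizer_singleton_iff.1 b.2.2), mul_one]⟩
          invFun := fun d => ⟨d * y₀⁻¹, D.mul_mem d.2.1 (inv_mem hy₀), mem_centralizer_singleton_iff.2 (by
            rw [← commutatorElement_eq_one_iff_mul_comm,
              H3.commutator_mul_left_of_commute (c _ (inv_mem hy₀) _ h.xD _ d.2.1),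
              H3.commutator_inv_left_of_commute (c _ hy₀ _ h.xD _ hy₀), d.2.2, inv_mul_cancel])⟩
          left_inv := fun b => by simp
          right_inv := fun b => by simp }
      obtain ⟨j, hj⟩ := (h.pD.to_le (inf_le_left : D ⊓ centralizer {x} ≤ D)).exists_card_eq
      rw [← Nat.card_eq_fintype_card, ← Nat.card_congr e, hj]
      exact fun e => h.ne ((Nat.prime_dvd_prime_iff_eq hq.out ht.out).1 (hq.out.dvd_of_dvd_pow e)))
    (Equiv.ext fun d => by rw [Equiv.Perm.coe_pow]; exact congrFun hψ1 d)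
  replace e : g⁻¹ * y ^ a * g = y := congrArg Subtype.val e
  have hgy : g ∈ normalizer (zpowers y : Set H) := mem_normalizer_fintype (by
    rintro _ ⟨i, rfl⟩
    exact ⟨a * i, by simp only; rw [← conj_zpow, zpow_mul]; congr 1; nth_rw 2 [← e]; group⟩)
  have h1 : nrm y u ≠ 1 := fun e1 => by
    have := Fintype.ofFinite (zpowers y)
    have e2 := congrArg (nrm x) ((finprod_eq_prod_of_fintype _).symm.trans e1)
    rw [nrm_fix (smul_one x), one_pow, nrm_prod,
      Finset.prod_eq_single 1 _ (by simp), OneMemClass.coe_one, one_smul, nrm_fix h.xu,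
      orderOf_eq_prime h.xt h.x1] at e2
    · obtain ⟨v, hv, h1⟩ := IsPGroup.exists_fixed_point_of_prime_dvd_card_of_fixed_point
        (h.pD.to_le (zpowers_le.2 hz0.1)) U (orderOf_eq_prime e2 h.u1 ▸ orderOf_dvd_natCard u)
        (a := 1) (fun b => smul_one b)
      exact hz (h.semiZ _ hz0 v (hv ⟨_, mem_zpowers _⟩) h1.symm)
    · rintro ⟨_, i, rfl⟩ - hb
      have hb' : y ^ i ∈ D := zpow_mem hy i
      by_contra e3
      have e4 : (⁅y ^ i, x⁆ * x) • nrm x (y ^ i • u) = nrm x (y ^ i • u) := by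
        rw [smul_nrm (mul_mem (centralizer_le_normalizer _ (by
          rintro _ ⟨j, rfl⟩; exact (c _ hb' _ h.xD _ (zpow_mem h.xD j)).eq)) (le_normalizer (mem_zpowers x)))]
        congr 1
        rw [commutatorElement_def, inv_mul_cancel_right, mul_smul, inv_smul_smul, mul_smul, h.xu]
      rw [mul_smul, self_nrm] at e4
      have e5 := h.semiZ _ (h.commZ hb' h.xD) _ e4 e3
      rw [H3.commutator_zpow_left_of_commute (c _ hy _ h.xD _ hy), hyx, ← orderOf_dvd_iff_zpow_eq_one, hzo] at e5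
      obtain ⟨m, rfl⟩ := e5
      exact hb (Subtype.ext (by simp [zpow_mul, ex y hy]))
  obtain ⟨T, hT⟩ := (h.nc _ trivial h1).exists
  have h3 : g ∈ (T : Subgroup H) := h.nc.mem trivial h1 hT (S.isPGroup'.to_le (zpowers_le.2 hg))
    (fun b hb => (zpowers_le.2 (show g ∈ MulAction.stabilizer H (nrm y u) from by
      rw [MulAction.mem_stabilizer_iff, smul_nrm hgy, hS g hg]) hb :)) (mem_zpowers g)
  have h4 : Commute g y := comm_of_norm h.ne T.isPGroup' h.pD hy (h.nc.norm trivial h1 hT (self_nrm y u)) h3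
  have h5 : Commute g x := hSx g hg
  exact hgz (hyx ▸ (((h4.mul_right h5).mul_right h4.inv_right).mul_right h5.inv_right).symm)

end Cfsg.Agent.H97.Pal
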