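import Cfsg.Agent.H97.Pal2

/-! Normal subgroups of prime power order are cyclic when two primes have the unique Sylow property. -/

set_option autoImplicit false

namespace Cfsg.Agent.H97.Pal

open Subgroup
open scoped Pointwise commutatorElement

universe u

section
variable {H U : Type*} [Group H] [CommGroup U] [MulDistribMulAction H U] {s : ℕ}

/-- restriction of the action to an invariant subgroup -/
@[reducible] def res (C : Subgroup H) (W : Subgroup U) (h : ∀ g ∈ C, ∀ w ∈ W, g • w ∈ W) : MulDistribMulAction C W where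
  smul g w := ⟨g.1 • w.1, h _ g.2 _ w.2⟩
  one_smul w := Subtype.ext (one_smul H w.1)
  mul_smul a b w := Subtype.ext (mul_smul a.1 b.1 w.1)
  smul_mul g a b := Subtype.ext (smul_mul' g.1 a.1 b.1)
  smul_one g := Subtype.ext (smul_one g.1)

/-- the group of automorphisms induced -/
abbrev Img (H U : Type*) [Group H] [CommGroup U] [MulDistribMulAction H U] : Subgroup (MulAut U) :=
  (MulDistribMulAction.toMulAut H U).range

/-- the map onto the induced group -/
abbrev img (H U : Type*) [Group H] [CommGroup U] [MulDistribMulAction H U] : H →* Img H U :=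
  (MulDistribMulAction.toMulAut H U).rangeRestrict

theorem img_surj : Function.Surjective (img H U) := MonoidHom.rangeRestrict_surjective _

theorem img_smul (g : H) (u : U) : img H U g • u = g • u := rfl

theorem NC.range [Finite H] [Fact s.Prime] (h : NC s H (⊤ : Subgroup U)) : NC s (Img H U) (⊤ : Subgroup U) := by
  intro u _ h1
  have e : ∀ S : Sylow s H, u ∈ fix U ((S.mapSurjective (img_surj (U := U)) : Sylow s (Img H U)) : Subgroup (Img H U)) ↔
      u ∈ fix U (S : Subgroup H) := fun S =>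
    ⟨fun hS x hx => hS _ ⟨x, hx, rfl⟩, fun hS _ ⟨x, hx, e⟩ => e ▸ hS x hx⟩
  obtain ⟨S, hS, hu⟩ := h u trivial h1
  refine ⟨_, (e S).2 hS, fun T hT => ?_⟩
  obtain ⟨T, rfl⟩ := Sylow.mapSurjective_surjective (img_surj (H := H) (U := U)) s T
  rw [hu T ((e T).1 hT)]

theorem dvd_img [Finite H] [hs : Fact s.Prime] {S : Subgroup H} (hS : IsPGroup s S) {g : H} (hg : g ∈ S) {u : U}
    (hu : g • u ≠ u) : s ∣ Nat.card (Img H U) := by
  have : Finite (Img H U) := Finite.of_surjective _ img_surj
  obtain ⟨k, hk⟩ := IsPGroup.iff_orderOf.1 (hS.map (img H U)) ⟨_, mem_map_of_mem _ hg⟩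
  rw [orderOf_mk] at hk
  refine dvd_trans ?_ (orderOf_dvd_natCard (img H U g))
  rw [hk]
  refine dvd_pow_self _ ?_
  rintro rfl
  exact hu (by rw [← img_smul, orderOf_eq_one_iff.1 hk, one_smul])

theorem NC.bot [FaithfulSMul H U] (h : NC s H (⊤ : Subgroup U)) (D : Subgroup H) [D.Normal] (hD : IsPGroup s D) :
    D = ⊥ := (eq_bot_iff_forall _).2 fun x hx => eq_of_smul_eq_smul (α := U) fun u => by
  by_cases h1 : u = 1
  · simp [h1]
  · obtain ⟨T, hT⟩ := (h u trivial h1).exists
    rw [one_smul, hT x (hD.le_sylow_of_normal T hx)]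

/-- restriction to an invariant subgroup whose Sylow subgroups lie in `C` -/
theorem NC.res (h : NC s H (⊤ : Subgroup U)) (C : Subgroup H) (W : Subgroup U) (hW : ∀ g ∈ C, ∀ w ∈ W, g • w ∈ W)
    (hC : ∀ w ∈ W, w ≠ 1 → ∀ S : Sylow s H, w ∈ fix U (S : Subgroup H) → (S : Subgroup H) ≤ C) :
    letI := res C W hW
    NC s C (⊤ : Subgroup W) := by
  let := Pal.res C W hW
  intro w _ h1
  have h1' : w.1 ≠ 1 := fun e => h1 (Subtype.ext e)
  obtain ⟨S, hS⟩ := (h w trivial h1').exists
  refine ⟨S.subtype (hC w w.2 h1' S hS), fun x hx => Subtype.ext (hS x hx), fun T hT => ?_⟩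
  have := h.mem trivial h1' hS (T.isPGroup'.map C.subtype) (by
    rintro _ ⟨x, hx, rfl⟩; exact congrArg Subtype.val (hT x hx))
  exact Sylow.ext (T.is_maximal' (S.subtype (hC w w.2 h1' S hS)).isPGroup' fun x hx => this ⟨x, hx, rfl⟩).symm

end

theorem n2 {l q r t : ℕ} [Fact l.Prime] [hq : Fact q.Prime] [hr : Fact r.Prime] [ht : Fact t.Prime] (hqr : q ≠ r)
    (n : ℕ) : ∀ (U : Type u) [CommGroup U] [Finite U] (H : Type u) [Group H] [Finite H] [MulDistribMulAction H U]
    [FaithfulSMul H U], Nat.card U = n → IsPGroup l U → NC q H (⊤ : Subgroup U) → NC r H (⊤ : Subgroup U) →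
    q ∣ Nat.card H → r ∣ Nat.card H → ∀ D : Subgroup H, D.Normal → IsPGroup t D → IsCyclic D := by
  induction n using Nat.strong_induction_on with | _ n ih => ?_
  intro U _ _ H _ _ _ _ hn hU nq nr dq dr D
  induction D using WellFoundedLT.induction with | _ D min => ?_
  intro hD pD
  by_contra hc
  have hD0 : D ≠ ⊥ := by rintro rfl; exact hc Bot.isCyclic
  have : Nontrivial U := by
    by_contra e
    rw [not_nontrivial_iff_subsingleton] at e
    exact hD0 ((eq_bot_iff_forall _).2 fun x _ => eq_of_smul_eq_smul (α := U) fun u => Subsingleton.elim _ _)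
  have ne : ∀ s, NC s H (⊤ : Subgroup U) → s ≠ t := by
    rintro s h rfl
    exact hD0 (h.bot D pD)
  have cent : ∀ (s : ℕ) [Fact s.Prime], NC s H (⊤ : Subgroup U) → s ∣ Nat.card H → ∀ S : Sylow s H,
      ¬ (S : Subgroup H) ≤ centralizer (D : Set H) := fun s _ h d S hS =>
    hc (schur _ D (h.irr hU d _ S hS) fun b hb g hg => (hg b hb).symm)
  have semi : ∀ E : Subgroup H, E.Normal → (∀ a ∈ E, ∀ b ∈ E, a * b = b * a) → Semi U E := fun E _ hE => by
    by_cases h2 : q = 2
    · exact nr.semi hU dr (fun e => hqr (h2.trans e.symm)) E hE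
    · exact nq.semi hU dq h2 E hE
  by_cases hs : Semi U D
  · by_cases h2 : t = 2
    · subst h2
      have k : ∀ (s : ℕ) [Fact s.Prime], NC s H (⊤ : Subgroup U) → s ∣ Nat.card H → s = 3 := fun s hs' h d => by
        by_contra h3
        obtain ⟨S⟩ : Nonempty (Sylow s H) := inferInstance
        refine cent s h d S fun g hg x hx => ?_
        have : Fact (Nat.Prime 3) := ⟨Nat.prime_three⟩
        rcases hs.fpf.mulAut_odd pD (MulAut.conjNormal g)
          (H4.coprime_orderOf_map _ (cop_of_mem (ne s h) S.isPGroup' hg)) with e | ⟨-, e⟩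
        · exact (mul_inv_eq_iff_eq_mul.1 (congrArg Subtype.val (DFunLike.congr_fun e ⟨x, hx⟩))).symm
        · have := H4.coprime_orderOf_map (MulAut.conjNormal (H := D)) (cop_of_mem h3 S.isPGroup' hg)
          rw [e] at this
          exact absurd this (by decide)
      exact hqr ((k q nq dq).trans (k r nr dr).symm)
    · exact hc (hs.fpf.isCyclic_of_odd pD h2)
  obtain ⟨x, xD, u, xu, u1, x1, xt⟩ : ∃ x ∈ D, ∃ u : U, x • u = u ∧ u ≠ 1 ∧ x ≠ 1 ∧ x ^ t = 1 := by
    simp only [Semi, not_forall] at hs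
    obtain ⟨y, hy, u, yu, u1, y1⟩ := hs
    obtain ⟨x, hx⟩ := exists_prime_orderOf_dvd_card' (G := zpowers y) t (by
      obtain ⟨k, hk⟩ := (pD.to_le (zpowers_le.2 hy)).exists_card_eq
      rw [hk]
      refine dvd_pow_self _ ?_
      rintro rfl
      exact y1 (zpowers_eq_bot.1 (eq_bot_of_card_eq _ hk)))
    rw [← orderOf_coe] at hx
    exact ⟨x, zpowers_le.2 hy x.2, u, zpowers_le.2 (show y ∈ MulAction.stabilizer H u from yu) x.2, u1,
      fun e => ht.out.one_lt.ne (by rw [← hx, e, orderOf_one]), hx ▸ pow_orderOf_eq_one _⟩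
  have cf : ∀ (s : ℕ) [Fact s.Prime], NC s H (⊤ : Subgroup U) → s ∣ Nat.card H → Cf U s t D x u := fun s _ h d =>
    ⟨ne s h, h, pD, cent s h d, fun K hK h1 h2 => min K (lt_of_le_of_ne h1 h2) hK (pD.to_le h1), semi, xD, x1, xt, u1, xu⟩
  let C := centralizer ({x} : Set H)
  let W := fix U (zpowers x)
  have mW : ∀ {w}, w ∈ W ↔ x • w = w := fun {w} => ⟨fun h => h x (mem_zpowers x), fun h =>
    zpowers_le.2 (show x ∈ MulAction.stabilizer H w from h)⟩
  have hW : ∀ g ∈ C, ∀ w ∈ W, g • w ∈ W := fun g hg w hw => mW.2 (by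
    rw [← mul_smul, ← mem_centralizer_singleton_iff.1 hg, mul_smul, mW.1 hw])
  have hC : ∀ (s : ℕ) [Fact s.Prime], NC s H (⊤ : Subgroup U) → ∀ w ∈ W, w ≠ 1 → ∀ S : Sylow s H,
      w ∈ fix U (S : Subgroup H) → (S : Subgroup H) ≤ C := fun s _ h w hw h1 S hS g hg =>
    mem_centralizer_singleton_iff.2 (comm_of_norm (ne s h) S.isPGroup' pD xD (h.norm trivial h1 hS (mW.1 hw)) hg)
  let := res C W hW
  have hI : Finite (Img C W) := Finite.of_surjective _ img_surj
  have dv : ∀ (s : ℕ) [Fact s.Prime], NC s H (⊤ : Subgroup U) → s ∣ Nat.card H → s ∣ Nat.card (Img C W) := by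
    intro s _ h d
    obtain ⟨S, hS⟩ := (h u trivial u1).exists
    have hSC := hC s h u (mW.2 xu) u1 S hS
    by_contra e
    refine (cf s h d).ncent S fun g hg a ha e1 => (comm_of_norm (ne s h) S.isPGroup' pD ha ?_ hg).symm
    have aC : a⁻¹ ∈ C := inv_mem (mem_centralizer_singleton_iff.2 e1)
    have : a⁻¹ • u ∈ fix U (S : Subgroup H) := fun y hy => by
      by_contra e2
      exact e (dvd_img (S.subtype hSC).isPGroup' (g := ⟨y, hSC hy⟩) hy (u := (⟨_, hW _ aC u (mW.2 xu)⟩ : W))
        fun e3 => e2 (congrArg Subtype.val e3))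
    rw [← smul_mem_fix a, smul_inv_smul] at this
    exact Sylow.smul_eq_iff_mem_normalizer.1 ((h u trivial u1).unique this hS)
  have hlt : Nat.card W < n := by
    rw [← hn]
    refine (card_le_card_group W).lt_of_ne fun e => x1 (eq_of_smul_eq_smul (α := U) fun v => ?_)
    rw [one_smul, mW.1 ((eq_top_of_card_eq W e).ge trivial)]
  have cyc := ih _ hlt W (Img C W) rfl (hU.to_subgroup W) (nq.res C W hW (hC q nq)).range
    (nr.res C W hW (hC r nr)).range (dv q nq dq) (dv r nr dr) ((D.subgroupOf C).map (img C W))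
    (Normal.map inferInstance _ img_surj) ((pD.comap_of_injective _ C.subtype_injective).map _)
  have c := cf q nq dq
  refine c.false fun a ha b hb ea eb => ?_
  have := commutative_of_cyclic_center_quotient ((img C W).subgroupMap (D.subgroupOf C)) (fun k hk => ?_)
    ⟨⟨a, mem_centralizer_singleton_iff.2 ea⟩, ha⟩ ⟨⟨b, mem_centralizer_singleton_iff.2 eb⟩, hb⟩
  · exact congrArg (fun y => y.1.1) this
  refine mem_center_iff.2 fun y => Subtype.ext (Subtype.ext (commutatorElement_eq_one_iff_mul_comm.1 ?_))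
  refine c.semiZ _ (c.commZ y.2 k.2) u ?_ u1
  have h1 : img C W ⁅y.1, k.1⁆ = 1 := by
    rw [map_commutatorElement, show img C W k.1 = 1 from congrArg Subtype.val hk, commutatorElement_one_right]
  have := img_smul ⁅y.1, k.1⁆ (⟨u, mW.2 xu⟩ : W)
  rw [h1, one_smul] at this
  exact (congrArg Subtype.val this).symm

end Cfsg.Agent.H97.Pal
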