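import Cfsg.Agent.H97.Pal3
import Cfsg.Agent.H88.CD2
import Cfsg.Agent.H88.ItoP
import Cfsg.Agent.H89.InvOver
import Cfsg.Agent.H83.ClassSize
import Cfsg.Agent.H79.Duality
import Cfsg.Agent.H44.Cores
import Cfsg.Agent.S0008
import Cfsg.Agent.S0044

/-! Character degrees over a complemented normal subgroup. -/

set_option autoImplicit false

namespace Cfsg.Agent.H97.Pal

open Subgroup Cfsg Cfsg.Agent.H5 Cfsg.Agent.H6 Cfsg.Agent.H88
open scoped Pointwise commutatorElement

universe u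

variable {G : Type u} [Group G]

/-- some irreducible degree is divisible by `n` -/
def Dv (G : Type*) [Group G] (n : ℕ) : Prop := ∃ χ : G → ℂ, IsIrrCharacter G χ ∧ n ∣ charDegree χ

/-- commuting elements -/
def Ab {G : Type*} [Group G] (A : Subgroup G) : Prop := ∀ a ∈ A, ∀ b ∈ A, a * b = b * a

theorem Dv.of_surj {K : Type*} [Group K] {n : ℕ} (h : Dv K n) (f : G →* K) (hf : Function.Surjective f) : Dv G n :=
  let ⟨χ, h1, h2⟩ := h; ⟨_, isIrrCharacter_comp h1 f hf, by rwa [charDegree_comp]⟩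

theorem Dv.mono {m n : ℕ} (h : Dv G n) (d : m ∣ n) : Dv G m := let ⟨χ, h1, h2⟩ := h; ⟨χ, h1, d.trans h2⟩

theorem Dv.index [Finite G] {n : ℕ} (h : Dv G n) (A : Subgroup G) [A.Normal] (hA : Ab A) : n ∣ A.index :=
  let ⟨_, h1, h2⟩ := h; h2.trans (charDegree_dvd_index_of_comm h1 A hA)

theorem dv_inertia [Finite G] (N : Subgroup G) [N.Normal] {θ : N → ℂ} (hθ : IsIrrCharacter N θ) :
    Dv G ((inertia N θ).index * charDegree θ) := by
  have := Fintype.ofFinite N
  obtain ⟨χ, hχ, h⟩ := exists_irr_over N hθ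
  obtain ⟨e, -, he⟩ := exists_index_inertia_dvd N hχ hθ h
  exact ⟨χ, hχ, by rw [he, mul_assoc]; exact dvd_mul_left _ _⟩

theorem dv_stab [Finite G] (N : Subgroup G) [N.Normal] (μ : N →* ℂˣ) : Dv G (stab N μ).index :=
  (dv_inertia N (isIrrCharacter_monoidHom μ)).mono (dvd_mul_right _ _)

theorem mul_dvd {q r n : ℕ} [hq : Fact q.Prime] [hr : Fact r.Prime] (h : q ≠ r) (h1 : q ∣ n) (h2 : r ∣ n) : q * r ∣ n :=
  ((Nat.coprime_primes hq.out hr.out).2 h).mul_dvd_of_dvd_of_dvd h1 h2

theorem fin [Finite G] [Group.IsSolvable G] {q r : ℕ} [hq : Fact q.Prime] [hr : Fact r.Prime] (h : q ≠ r)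
    (hc : ∀ (t : ℕ) [Fact t.Prime] (D : Subgroup G), D.Normal → IsPGroup t D → IsCyclic D)
    (bq : ∀ (D : Subgroup G) [D.Normal], IsPGroup q D → D = ⊥)
    (br : ∀ (D : Subgroup G) [D.Normal], IsPGroup r D → D = ⊥)
    (dq : q ∣ Nat.card G) (dr : r ∣ Nat.card G) : Dv G (q * r) := by
  let F := fittingSubgroup G
  have : Group.IsNilpotent F := S0008.result
  have hn : ∀ (t : ℕ) [Fact t.Prime] (P : Sylow t F), ((P : Subgroup F).map F.subtype).Normal := fun t _ P =>
    have := P.characteristic_of_normal inferInstance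
    ConjAct.normal_of_characteristic_of_normal
  have : IsZGroup F := ⟨fun t ht P =>
    have := Fact.mk ht
    have := hc t _ (hn t P) (P.isPGroup'.map _)
    isCyclic_of_surjective _ (equivMapOfInjective (P : Subgroup F) F.subtype F.subtype_injective).symm.surjective⟩
  obtain ⟨μ, hμ⟩ := H79.exists_injective_units F
  have k : ∀ (s : ℕ) [Fact s.Prime], (∀ (D : Subgroup G) [D.Normal], IsPGroup s D → D = ⊥) → s ∣ Nat.card G →
      s ∣ (stab F μ).index := fun s hs b d => by
    refine dvd_trans ?_ (index_dvd_of_le (K := F) fun g hg => S0044.result fun x hx => ?_)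
    · obtain ⟨P⟩ : Nonempty (Sylow s F) := inferInstance
      rw [← F.card_mul_index, hs.out.dvd_mul] at d
      refine d.resolve_left fun e => P.ne_bot_of_dvd_card e ?_
      have := hn s P
      exact (map_eq_bot_iff_of_injective _ F.subtype_injective).1 (b _ (P.isPGroup'.map _))
    · exact (mul_inv_eq_iff_eq_mul.1 (congrArg Subtype.val (hμ (mem_stab.1 hg ⟨x, hx⟩)))).symm
  exact (dv_stab F μ).mono (mul_dvd h (k q bq dq) (k r br dr))

/-- two primes with the unique Sylow property on the same module -/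
theorem two {U : Type u} [CommGroup U] [Finite U] [MulDistribMulAction G U] [Finite G] [Group.IsSolvable G]
    {l q r : ℕ} [Fact l.Prime] [Fact q.Prime] [Fact r.Prime] (h : q ≠ r) (hU : IsPGroup l U)
    (nq : NC q G (⊤ : Subgroup U)) (nr : NC r G (⊤ : Subgroup U))
    (tq : ∃ S : Sylow q G, fix U (S : Subgroup G) ≠ ⊤) (tr : ∃ S : Sylow r G, fix U (S : Subgroup G) ≠ ⊤) :
    Dv G (q * r) := by
  have : Finite (Img G U) := Finite.of_surjective _ img_surj
  have : Group.IsSolvable (Img G U) := Group.isSolvable_of_surjective (f := img G U) img_surj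
  have k : ∀ (s : ℕ) [Fact s.Prime], (∃ S : Sylow s G, fix U (S : Subgroup G) ≠ ⊤) → s ∣ Nat.card (Img G U) := by
    rintro s _ ⟨S, hS⟩
    by_contra e
    exact hS (eq_top_iff.2 fun u _ g hg => by_contra fun e1 => e (dvd_img S.isPGroup' hg e1))
  exact (fin h (fun t _ => n2 h _ U _ rfl hU nq.range nr.range (k q tq) (k r tr)) nq.range.bot nr.range.bot
    (k q tq) (k r tr)).of_surj _ img_surj

/-- projection onto a complement -/
structure Cp (N H : Subgroup G) (ρ : G →* H) : Prop where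
  id : ∀ h : H, ρ h = h
  ker : ∀ g, ρ g = 1 ↔ g ∈ N

theorem exists_cp {N H : Subgroup G} [N.Normal] (h : H.IsComplement' N) : ∃ ρ, Cp N H ρ :=
  ⟨h.QuotientMulEquiv.toMonoidHom.comp (QuotientGroup.mk' N), fun x => h.QuotientMulEquiv.apply_symm_apply x,
    fun g => h.QuotientMulEquiv.map_eq_one_iff.trans (QuotientGroup.eq_one_iff g)⟩

variable {N H : Subgroup G} {ρ : G →* H}

theorem Cp.surj (c : Cp N H ρ) : Function.Surjective ρ := fun h => ⟨h, c.id h⟩

theorem Cp.mem (c : Cp N H ρ) (g : G) : g * (ρ g : G)⁻¹ ∈ N := (c.ker _).1 (by rw [map_mul, map_inv, c.id, mul_inv_cancel])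

theorem Cp.mem_iff (c : Cp N H ρ) {T : Subgroup G} (hT : N ≤ T) (g : G) : (ρ g : G) ∈ T ↔ g ∈ T :=
  ⟨fun h => by simpa using mul_mem (hT (c.mem g)) h, fun h => by simpa using mul_mem (inv_mem (hT (c.mem g))) h⟩

theorem Cp.index (c : Cp N H ρ) {T : Subgroup G} (hT : N ≤ T) : (T.subgroupOf H).index = T.index := by
  rw [← index_comap_of_surjective _ c.surj]
  congr 1
  ext g
  exact c.mem_iff hT g

/-- exactly one Sylow subgroup in `T`, and it is abelian -/
def Good (s : ℕ) {H : Type*} [Group H] (T : Subgroup H) : Prop :=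
  (∃! S : Sylow s H, (S : Subgroup H) ≤ T) ∧ ∀ S : Sylow s H, (S : Subgroup H) ≤ T → Ab (S : Subgroup H)

theorem good_of {K : Type*} [Group K] [Finite K] [Group.IsSolvable K] {s : ℕ} [Fact s.Prime] {T : Subgroup K}
    (h1 : ¬ s ∣ T.index) (h2 : ¬ Dv T s) : Good s T := by
  have h3 : ∀ χ : T → ℂ, IsIrrCharacter T χ → ¬ s ∣ charDegree χ := fun χ a b => h2 ⟨χ, a, b⟩
  have h4 := sylow_normal_of_not_dvd H22.isPSolvable_of_isSolvable h3
  obtain ⟨S, hS⟩ := H83.not_dvd_index_iff.1 h1
  refine ⟨⟨S, hS, fun S' hS' => ?_⟩, fun S' hS' a ha b hb => ?_⟩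
  · have := (S.subtype hS).unique_of_normal (h4 _)
    exact Sylow.subtype_injective (hP := hS') (hQ := hS) (Subsingleton.elim _ _)
  · have := h4 (S'.subtype hS')
    exact congrArg Subtype.val (comm_of_normal_of_not_dvd (S'.subtype hS').isPGroup' h3 ⟨a, hS' ha⟩ ha ⟨b, hS' hb⟩ hb)

theorem Cp.kl [Finite G] [Group.IsSolvable G] (c : Cp N H ρ) [N.Normal] {p s : ℕ} [Fact p.Prime] [Fact s.Prime]
    (hps : p ≠ s) (h : ¬ Dv G (p * s)) {θ : N → ℂ} (hθ : IsIrrCharacter N θ) (T : Subgroup G) (hT : T = inertia N θ)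
    (hNT : N ≤ T) {χ : T → ℂ} (hχ : IsCharacter T χ) (ext : ∀ n : N, χ ⟨n, hNT n.2⟩ = θ n)
    (hp : p ∣ T.index * charDegree θ) : Good s (T.subgroupOf H) := by
  have := Fintype.ofFinite G
  have := Fintype.ofFinite T
  have := Fintype.ofFinite N
  let σ : T →* T.subgroupOf H := (ρ.comp T.subtype).codRestrict _ fun t => (c.mem_iff hNT t).2 t.2
  have hσ : Function.Surjective σ := fun x => ⟨⟨x.1, x.2⟩, Subtype.ext (c.id x.1)⟩
  have key : ∀ β : T.subgroupOf H → ℂ, IsIrrCharacter _ β → ¬ s ∣ T.index * charDegree β := fun β hβ d => by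
    have h1 := isIrrCharacter_comp hβ σ hσ
    have h2 : ∀ n : T, n.1 ∈ N → β (σ n) = β 1 := fun n hn => congrArg β (Subtype.ext ((c.ker _).2 hn))
    have h3 := H30.isIrr_mul_of_ker (N.subgroupOf T) hχ (by
      convert isIrrCharacter_comp_equiv hθ (subgroupOfEquivOfLe hNT) using 2 with n
      exact ext ⟨n.1.1, n.2⟩) h1 fun n hn => by rw [h2 n hn, map_one]
    have h4 := isIrr_indFun_of_over N hθ T hT hNT h3 (by
      have : (fun n : N => ((fun x => β (σ x)) * χ) ⟨n, hNT n.2⟩) = β 1 • θ := funext fun n => by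
        rw [Pi.mul_apply, ext, h2 _ n.2]; rfl
      rw [this, classInner_smul_left, classInner_irr_self hθ, mul_one]
      exact degree_ne_zero hβ)
    refine h ⟨_, h4, ?_⟩
    rw [charDegree_indFun _ (isCharacter_of_isIrr h3), charDegree_mul (isCharacter_of_isIrr h1) hχ, charDegree_comp,
      charDegree_congr (ext 1)]
    exact mul_dvd hps (hp.trans (mul_dvd_mul_left _ (dvd_mul_left _ _)))
      (d.trans (mul_dvd_mul_left _ (dvd_mul_right _ _)))
  exact good_of (fun d => key _ isIrrCharacter_one ((c.index hNT ▸ d).mul_right _))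
    fun ⟨β, hβ, d⟩ => key β hβ (d.mul_left _)

theorem Cp.lin [Finite G] [Group.IsSolvable G] (c : Cp N H ρ) [hN : N.Normal] {p s : ℕ} [Fact p.Prime] [Fact s.Prime]
    (hps : p ≠ s) (h : ¬ Dv G (p * s)) (μ : N →* ℂˣ) (hp : p ∣ (stab N μ).index) :
    Good s ((stab N μ).subgroupOf H) := by
  let ν : stab N μ →* ℂˣ := MonoidHom.mk' (fun g => μ ⟨_, c.mem g⟩) fun a b => by
    rw [← mem_stab.1 ((c.mem_iff (le_stab N μ) a).2 a.2) ⟨_, c.mem b⟩, ← map_mul]
    congr 1
    ext
    simp [mul_assoc]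
  exact c.kl hps h (isIrrCharacter_monoidHom μ) _ rfl (le_stab N μ) (isCharacter_monoidHom ν)
    (fun n => by
      change (μ _ : ℂ) = _
      congr 2
      ext
      simp [(c.ker n).2 n.2]) (hp.mul_right _)

/-- the dual group -/
def Dual (M : Subgroup G) : Type u := M →* ℂˣ

noncomputable instance (M : Subgroup G) : CommGroup (Dual M) := inferInstanceAs (CommGroup (M →* ℂˣ))

instance [Finite G] (M : Subgroup G) : Finite (Dual M) := inferInstanceAs (Finite (M →* ℂˣ))

noncomputable instance (M : Subgroup G) [M.Normal] : MulDistribMulAction G (Dual M) where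
  smul g μ := MonoidHom.comp μ (MulAut.conjNormal g⁻¹).toMonoidHom
  one_smul μ := MonoidHom.ext fun m => congrArg μ.toFun (Subtype.ext (by simp))
  mul_smul a b μ := MonoidHom.ext fun m => congrArg μ.toFun (Subtype.ext (by simp [mul_assoc]))
  smul_mul _ _ _ := rfl
  smul_one _ := rfl

/-- the underlying homomorphism -/
def Dual.hom {M : Subgroup G} (μ : Dual M) : M →* ℂˣ := μ

theorem smul_dual {M : Subgroup G} [M.Normal] (g : G) (μ : Dual M) : g • μ = μ ↔ g ∈ stab M μ.hom := by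
  rw [← inv_mem_iff, mem_stab]; exact MonoidHom.ext_iff

theorem fix_dual {M : Subgroup G} [M.Normal] (S : Subgroup H) (μ : Dual M) :
    μ ∈ fix (Dual M) S ↔ S ≤ (stab M μ.hom).subgroupOf H := forall₂_congr fun g _ => smul_dual g.1 μ

theorem pg_dual [Finite G] {M : Subgroup G} {l : ℕ} [Fact l.Prime] (h : IsPGroup l M) : IsPGroup l (Dual M) := fun μ => by
  obtain ⟨k, hk⟩ := h.exists_card_eq
  exact ⟨k, MonoidHom.ext fun m => by
    change μ.hom m ^ l ^ k = 1
    rw [← map_pow, ← hk, pow_card_eq_one', map_one]⟩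

/-- linear characters separate -/
theorem sep {P : Type*} [Group P] [Finite P] (K : Subgroup P) (hK : _root_.commutator P ≤ K) {x : P}
    (h : ∀ ν : P →* ℂˣ, (∀ k ∈ K, ν k = 1) → ν x = 1) : x ∈ K := by
  have : K.Normal := Normal.of_commutator_le _ hK
  refine (QuotientGroup.eq_one_iff x).1 (eq_one_of_forall_irr fun χ hχ => ?_)
  obtain ⟨ν, h1, h2⟩ := H89.exists_hom_of_trivial_on K hK (isIrrCharacter_inflate K hχ) fun k hk => by
    rw [(QuotientGroup.eq_one_iff k).2 hk]; rfl
  exact (congrFun h2 x).trans (by rw [h ν h1, ← map_one ν]; exact (congrFun h2 1).symm)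

theorem cen {P M : Type*} [Group P] [Finite P] [Group M] [Fintype M] (j : M →* P) (hj : ∀ m, j m ∈ center P)
    {θ : P → ℂ} (hθ : IsIrrCharacter P θ) (μ : M →* ℂˣ) (h : classInner (fun m => θ (j m)) (fun m => (μ m : ℂ)) ≠ 0)
    (m : M) : θ (j m) = μ m * θ 1 := by
  have h0 := degree_ne_zero hθ
  let f : M →* ℂ :=
    { toFun := fun m => θ (j m) / θ 1
      map_one' := by rw [map_one, div_self h0]
      map_mul' := fun a b => by
        obtain ⟨ω, -, -, e⟩ := exists_apply_mul_eq_of_norm_eq (isCharacter_of_isIrr hθ) (norm_apply_of_mem_center hθ (hj a))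
        have := e 1
        rw [mul_one] at this
        rw [map_mul, e, this]; field_simp }
  have e : (fun m => θ (j m)) = θ 1 • fun m => (f.toHomUnits m : ℂ) := funext fun m => by
    change _ = θ 1 * (θ (j m) / θ 1)
    field_simp
  rw [e, classInner_smul_left] at h
  have := by_contra fun e => h (by
    rw [classInner_irr_ne (isIrrCharacter_monoidHom f.toHomUnits) (isIrrCharacter_monoidHom μ) e, mul_zero])
  rw [congrFun e m, this, mul_comm]; rfl

end Cfsg.Agent.H97.Pal
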