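import Cfsg.Agent.H97.Pal4
import Cfsg.Agent.H44.Subnormal

/-! The case of a Sylow subgroup that is normal only modulo a minimal normal subgroup. -/

set_option autoImplicit false

namespace Cfsg.Agent.H97.Pal

open Subgroup Cfsg Cfsg.Agent.H5 Cfsg.Agent.H6 Cfsg.Agent.H88
open scoped Pointwise commutatorElement

universe u

variable {G : Type u} [Group G] {M H : Subgroup G} [M.Normal] {s : ℕ}

/-- every nontrivial linear character of `M` is fixed by a unique Sylow subgroup of `H`, which is abelian -/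
def GG (s : ℕ) (M H : Subgroup G) [M.Normal] : Prop :=
  ∀ μ : Dual M, μ ≠ 1 → Good s ((stab M μ.hom).subgroupOf H)

theorem GG.nc (h : GG s M H) : NC s H (⊤ : Subgroup (Dual M)) := fun μ _ h1 => by
  simpa only [fix_dual] using (h μ h1).1

omit [M.Normal] in
theorem Ab.comm (ab : Ab M) : _root_.commutator M ≤ ⊥ :=
  (commutator_eq_bot_iff_comm.2 fun a b => Subtype.ext (ab a a.2 b b.2)).le

omit [M.Normal] in
theorem Ab.ex [Finite G] (ab : Ab M) (h0 : M ≠ ⊥) : ∃ μ : Dual M, μ ≠ 1 := by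
  by_contra e
  push Not at e
  exact h0 ((eq_bot_iff_forall _).2 fun x hx => congrArg Subtype.val
    (sep ⊥ ab.comm (x := ⟨x, hx⟩) fun ν _ => DFunLike.congr_fun (show ν = 1 from e ν) _))

theorem GG.triv [Finite G] [Fact s.Prime] (h : GG s M H) (ab : Ab M) (h0 : M ≠ ⊥) {S : Sylow s H}
    (hS : fix (Dual M) (S : Subgroup H) = ⊤) :
    (∀ T, T = S) ∧ Ab (S : Subgroup H) ∧ ∀ g ∈ (S : Subgroup H), (g : G) ∈ centralizer (M : Set G) := by
  obtain ⟨μ, hμ⟩ := ab.ex h0
  have c : ∀ g ∈ (S : Subgroup H), (g : G) ∈ centralizer (M : Set G) := fun g hg =>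
    mem_centralizer_of_forall_stab M ab fun ν => (fix_dual _ (ν : Dual M)).1 (hS.ge trivial) hg
  refine ⟨fun T => ?_, (h μ hμ).2 S ((fix_dual _ _).1 (hS.ge trivial)), c⟩
  obtain ⟨g, rfl⟩ := MulAction.exists_smul_eq H S T
  exact (h.nc μ trivial hμ).unique (smul_inv_smul g μ ▸ (smul_mem_fix g S _).2 (hS.ge trivial)) (hS.ge trivial)

theorem comm_le_ker {A : Subgroup G} {μ : M →* ℂˣ} (h : A ≤ stab M μ) : ⁅M, A⁆ ≤ μ.ker.map M.subtype :=
  commutator_le.2 fun m hm a ha => ⟨⟨m, hm⟩ * MulAut.conjNormal a ⟨m, hm⟩⁻¹, by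
    rw [SetLike.mem_coe, MonoidHom.mem_ker, map_mul, mem_stab.1 (h ha), map_inv, mul_inv_cancel], by
    simp [commutatorElement_def, mul_assoc]⟩

theorem caseA [Finite G] [Group.IsSolvable G] {l p q r : ℕ} [Fact l.Prime] [Fact p.Prime] [Fact q.Prime] [Fact r.Prime]
    (h0 : M ≠ ⊥) (ab : Ab M) (pl : IsPGroup l M) (min : ∀ L : Subgroup G, L.Normal → L ≤ M → L = ⊥ ∨ L = M)
    (hpq : p ≠ q) (hpr : p ≠ r) (hqr : q ≠ r) (dq : Dv G q) (dr : Dv G r) (nq : ¬ Dv G (p * q)) (nr : ¬ Dv G (p * r))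
    (hP : ∀ P : Sylow p G, ((P : Subgroup G) ⊔ M).Normal) (nP : ∀ P : Sylow p G, ¬ (P : Subgroup G).Normal) :
    Dv G (q * r) := by
  have fr : ∀ P : Sylow p G, normalizer ((P : Subgroup G) : Set G) ⊔ M = ⊤ := fun P => by
    have := hP P
    have h : normalizer ((P : Subgroup G) : Set G) ⊔ (P ⊔ M) = ⊤ := P.normalizer_sup_eq_top' le_sup_left
    rwa [← sup_assoc, sup_eq_left.2 (le_normalizer (H := (P : Subgroup G)))] at h
  have A1 : ∀ (P : Sylow p G) (K : Subgroup G), K ≤ M → normalizer ((P : Subgroup G) : Set G) ≤ normalizer (K : Set G) →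
      K = ⊥ ∨ K = M := fun P K h1 h2 => min K (normalizer_eq_top_iff.1 (eq_top_iff.2 ((fr P).ge.trans (sup_le h2
        fun m hm => centralizer_le_normalizer _ fun k hk => ab k (h1 hk) m hm)))) h1
  have A2 : ∀ P : Sylow p G, ¬ M ≤ normalizer ((P : Subgroup G) : Set G) := fun P h =>
    nP P (normalizer_eq_top_iff.1 (by rw [← fr P, sup_eq_left.2 h]))
  obtain ⟨P⟩ : Nonempty (Sylow p G) := inferInstance
  let H := normalizer ((P : Subgroup G) : Set G)
  obtain ⟨ρ, c⟩ := exists_cp (N := M) (H := H) (isComplement'_of_disjoint_and_mul_eq_univ (disjoint_iff.2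
    ((A1 P _ inf_le_right ((le_inf le_normalizer le_normalizer_of_normal).trans
      inf_normalizer_le_normalizer_inf)).resolve_right fun e => A2 P (e.ge.trans inf_le_left)))
    (by rw [← mul_normal, fr]; rfl))
  have g : ∀ (s : ℕ) [Fact s.Prime], p ≠ s → ¬ Dv G (p * s) → GG s M H := fun s _ h1 h2 μ hμ => c.lin h1 h2 _ (by
    by_contra e
    obtain ⟨Q, hQ⟩ := H83.not_dvd_index_iff.1 e
    rcases A1 Q ⁅M, Q⁆ (commutator_le_left _ _) ((le_inf le_normalizer_of_normal le_rfl).trans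
      (H44.normalizer_inf_le_normalizer_commutator _ _)) with e | e
    · exact A2 Q ((commutator_eq_bot_iff_le_centralizer.1 e).trans (centralizer_le_normalizer _))
    · refine hμ (MonoidHom.ext fun m => ?_)
      obtain ⟨x, hx, e1⟩ := comm_le_ker hQ (e.ge m.2)
      exact Subtype.ext e1 ▸ hx)
  have nt : ∀ (s : ℕ) [Fact s.Prime], GG s M H → Dv G s → ∃ S : Sylow s H, fix (Dual M) (S : Subgroup H) ≠ ⊤ := by
    intro s _ h d
    obtain ⟨S⟩ : Nonempty (Sylow s H) := inferInstance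
    refine ⟨S, fun e => ?_⟩
    obtain ⟨h1, h2, h3⟩ := h.triv ab h0 e
    have : Subsingleton (Sylow s H) := ⟨fun a b => (h1 a).trans (h1 b).symm⟩
    have := S.normal_of_subsingleton
    have h4 := d.index ((S : Subgroup H).comap ρ) fun a ha b hb => by
      have e1 : (ρ a : G) * ρ b = ρ b * ρ a := congrArg Subtype.val (h2 _ ha _ hb)
      have e2 := h3 _ ha _ (c.mem b)
      have e3 := h3 _ hb _ (c.mem a)
      have e4 := ab _ (c.mem a) _ (c.mem b)
      generalize hx : a * (ρ a : G)⁻¹ = x at e3 e4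
      generalize hy : b * (ρ b : G)⁻¹ = y at e2 e4
      rw [mul_inv_eq_iff_eq_mul] at hx hy
      have : Commute (x * ρ a) (y * ρ b) :=
        (Commute.mul_right e4 e3).mul_left (Commute.mul_right e2.symm e1)
      rwa [← hx, ← hy] at this
    rw [index_comap_of_surjective _ c.surj] at h4
    exact S.not_dvd_index h4
  exact (two hqr (pg_dual pl) (g q hpq nq).nc (g r hpr nr).nc (nt q (g q hpq nq) dq) (nt r (g r hpr nr) dr)).of_surj
    ρ c.surj

end Cfsg.Agent.H97.Pal
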