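import Cfsg.Agent.H97.Pal5
import Cfsg.Agent.H46.PAction

/-! The case of a normal Sylow subgroup of class two. -/

set_option autoImplicit false

namespace Cfsg.Agent.H97.Pal

open Subgroup Cfsg Cfsg.Agent.H5 Cfsg.Agent.H6 Cfsg.Agent.H88
open scoped Pointwise commutatorElement

universe u

variable {G : Type u} [Group G]

theorem ne_zero_of_comm {P : Type*} [Group P] [Finite P] {θ : P → ℂ} (hθ : IsIrrCharacter P θ) {x : P}
    (h : ∀ y, θ ⁅x, y⁆ = θ 1) : θ x ≠ 0 := by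
  obtain ⟨φ, hφ, e⟩ := exists_isIrr_quotient (charKer (isCharacter_of_isIrr hθ)) hθ fun g hg => hg
  have := norm_apply_of_mem_center hφ (z := x) (mem_center_iff.2 fun y => by
    obtain ⟨y, rfl⟩ := QuotientGroup.mk_surjective y
    have := (QuotientGroup.eq_one_iff _).2 ((mem_charKer (isCharacter_of_isIrr hθ)).2 (h y))
    exact (commutatorElement_eq_one_iff_mul_comm.1 this).symm)
  rw [congrFun e x, ← norm_ne_zero_iff, this, norm_ne_zero_iff]
  exact degree_ne_zero hφ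

theorem card_triv {P : Type*} [Group P] [Finite P] (K : Subgroup P) (hK : _root_.commutator P ≤ K) :
    Nat.card (H89.homTriv K) = K.index := by
  have : K.Normal := Normal.of_commutator_le _ hK
  rw [Nat.card_congr (H89.homTrivEquiv K), card_monoidHom_eq_index_commutator,
    commutator_eq_bot_iff_comm.2 ((Normal.quotient_commutative_iff_commutator_le.2 hK).is_comm.comm), index_bot]
  rfl

theorem not_union {U : Type*} [Group U] {A B : Subgroup U} (hA : A ≠ ⊤) (hB : B ≠ ⊤) : ∃ u, u ∉ A ∧ u ∉ B := by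
  obtain ⟨a, -, ha⟩ := SetLike.exists_of_lt hA.lt_top
  obtain ⟨b, -, hb⟩ := SetLike.exists_of_lt hB.lt_top
  by_cases h1 : a ∈ B
  · by_cases h2 : b ∈ A
    · exact ⟨a * b, fun h => ha ((A.mul_mem_cancel_right h2).1 h), fun h => hb ((B.mul_mem_cancel_left h1).1 h)⟩
    · exact ⟨b, h2, hb⟩
  · exact ⟨a, ha, h1⟩

/-- a normal Sylow subgroup of class two with a complement -/
structure CB (p : ℕ) (P M H : Subgroup G) (ρ : G →* H) : Prop where
  cp : Cp P H ρ
  pP : IsPGroup p P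
  nd : ¬ p ∣ P.index
  hi : H.index = Nat.card P
  hc : P.index = Nat.card H
  hM : ⁅P, P⁆ = M
  cM : ∀ x ∈ P, ∀ m ∈ M, x * m = m * x
  h0 : M ≠ ⊥

variable {p s : ℕ} {P M H : Subgroup G} {ρ : G →* H}

theorem CB.le (c : CB p P M H ρ) : M ≤ P := c.hM ▸ le_normalizer_iff_commutator_le_left.1 le_normalizer

theorem CB.ab (c : CB p P M H ρ) : Ab M := fun a ha => c.cM a (c.le ha)

theorem CB.mem (c : CB p P M H ρ) {x : P} : x ∈ _root_.commutator P ↔ x.1 ∈ M := by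
  rw [← c.hM, ← map_subtype_commutator]
  exact (mem_map_iff_mem P.subtype_injective).symm

theorem CB.lin (c : CB p P M H ρ) (ν : P →* ℂˣ) (m : M) : ν (inclusion c.le m) = 1 :=
  Abelianization.commutator_subset_ker ν (c.mem.2 m.2)

/-- commutator with a fixed element -/
def CB.cm (c : CB p P M H ρ) (x : P) : P →* M :=
  MonoidHom.mk' (fun y => ⟨⁅x.1, y.1⁆, c.hM.le (commutator_mem_commutator x.2 y.2)⟩) fun a b =>
    Subtype.ext (H3.commutator_mul_right_of_commute (c.cM _ a.2 _ (c.hM.le (commutator_mem_commutator x.2 b.2))))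

variable [Finite G] [hp : Fact p.Prime] [hs : Fact s.Prime] [P.Normal] [M.Normal]

omit [P.Normal] [M.Normal] in
theorem CB.cop (c : CB p P M H ρ) : (Nat.card P).Coprime P.index := by
  obtain ⟨k, hk⟩ := c.pP.exists_card_eq
  rw [hk]
  exact ((hp.out.coprime_iff_not_dvd).2 c.nd).pow_left k

omit [M.Normal] in
theorem CB.good [Group.IsSolvable G] (c : CB p P M H ρ) (hps : p ≠ s) (h : ¬ Dv G (p * s)) {θ : P → ℂ}
    (hθ : IsIrrCharacter P θ) {μ : M →* ℂˣ} (h1 : μ ≠ 1) (ov : ∀ m, θ (inclusion c.le m) = μ m * θ 1) :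
    Good s ((inertia P θ).subgroupOf H) := by
  have hT := le_inertia P (isClassFunction_of_isIrr hθ)
  obtain ⟨χ, hχ, e⟩ := exists_extension_of_coprime_card (P.subgroupOf (inertia P θ))
    (by
      rw [Nat.card_congr (subgroupOfEquivOfLe hT).toEquiv]
      exact c.cop.coprime_dvd_right (relIndex_dvd_index_of_le hT))
    (isIrrCharacter_comp_equiv hθ (subgroupOfEquivOfLe hT))
    (eq_top_iff.2 fun g _ => (mem_inertia_iff _).2 fun n => (mem_inertia_iff P).1 g.2 ⟨n.1.1, n.2⟩)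
  refine c.cp.kl hps h hθ _ rfl hT (isCharacter_of_isIrr hχ) (fun n => e ⟨⟨n, hT n.2⟩, n.2⟩) (Dvd.dvd.mul_left ?_ _)
  obtain ⟨k, hk⟩ := exists_charDegree_eq_pow c.pP hθ
  rw [hk]
  refine dvd_pow_self _ ?_
  rintro rfl
  have h2 := (charDegree_eq_one_iff (isCharacter_of_isIrr hθ)).1 hk
  obtain ⟨ν, rfl⟩ := exists_monoidHom_of_degree_one (isCharacter_of_isIrr hθ) h2
  refine h1 (MonoidHom.ext fun m => Units.ext ?_)
  simpa [c.lin] using (ov m).symm

theorem CB.over (c : CB p P M H ρ) (μ : M →* ℂˣ) : ∃ θ : P → ℂ, IsIrrCharacter P θ ∧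
    (∀ m, θ (inclusion c.le m) = μ m * θ 1) ∧ (inertia P θ).subgroupOf H = (stab M μ).subgroupOf H := by
  have := Fintype.ofFinite M
  obtain ⟨⟨θ, hθ⟩, h1, h2⟩ := H89.exists_sInv_over_abelian (S := H ⊓ stab M μ) (G := P) (M := M)
    le_normalizer_of_normal le_normalizer_of_normal c.le c.hM.le
    ((c.cop.coprime_dvd_left (index_dvd_card _)).coprime_dvd_right (c.hc ▸ card_dvd_of_le inf_le_left))
    ⟨_, isIrrCharacter_monoidHom μ⟩ fun g hg a b e => by
      rw [show b = MulAut.conjNormal g a from Subtype.ext e]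
      exact congrArg Units.val (mem_stab.1 hg.2 a)
  have ov := cen (inclusion c.le) (fun m => mem_center_iff.2 fun x => Subtype.ext (c.cM x x.2 m m.2)) hθ μ (by
    rw [H89.mlt_spec _ (isCharacter_of_isIrr hθ) (isCharacter_monoidHom μ)]
    exact_mod_cast h1)
  refine ⟨θ, hθ, ov, le_antisymm (fun g hg => mem_stab.2 fun m => Units.ext ?_) fun g hg =>
    (mem_inertia_iff P).2 fun n => h2 g ⟨g.2, hg⟩ n _ rfl⟩
  refine mul_right_cancel₀ (degree_ne_zero hθ) ?_
  rw [← ov, ← ov]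
  exact (mem_inertia_iff P).1 hg (inclusion c.le m)

theorem CB.gg [Group.IsSolvable G] (c : CB p P M H ρ) (hps : p ≠ s) (h : ¬ Dv G (p * s)) : GG s M H := fun μ h1 => by
  obtain ⟨θ, hθ, ov, e⟩ := c.over μ.hom
  rw [← e]
  exact c.good hps h hθ h1 ov

omit [P.Normal] [M.Normal] in
theorem CB.ncent (c : CB p P M H ρ) (hps : p ≠ s) (d : Dv G s) {S : Sylow s H} (h1 : ∀ T, T = S)
    (h2 : Ab (S : Subgroup H)) : ∃ g ∈ (S : Subgroup H), ∃ y ∈ P, (g : G) * y ≠ y * g := by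
  by_contra e
  push Not at e
  have : Subsingleton (Sylow s H) := ⟨fun a b => (h1 a).trans (h1 b).symm⟩
  have hn := S.normal_of_subsingleton
  have : ((S : Subgroup H).map H.subtype).Normal := ⟨by
    rintro _ ⟨a, ha, rfl⟩ g
    refine ⟨_, hn.conj_mem a ha (ρ g), ?_⟩
    refine (eq_mul_inv_of_mul_eq (e _ (hn.conj_mem a ha (ρ g)) _ (c.cp.mem g))).trans ?_
    simp [mul_assoc]⟩
  have h4 := d.index ((S : Subgroup H).map H.subtype) (by
    rintro _ ⟨a, ha, rfl⟩ _ ⟨b, hb, rfl⟩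
    exact congrArg Subtype.val (h2 a ha b hb))
  obtain ⟨k, hk⟩ := c.pP.exists_card_eq
  rw [index_map_subtype, c.hi, hk, hs.out.dvd_mul] at h4
  exact h4.elim S.not_dvd_index fun h => hps ((Nat.prime_dvd_prime_iff_eq hs.out hp.out).1 (hs.out.dvd_of_dvd_pow h)).symm

omit [Finite G] [M.Normal] in
theorem CB.cent (c : CB p P M H ρ) (hps : p ≠ s) {S : Sylow s H} {g : H} (hg : g ∈ (S : Subgroup H))
    {y : P} (h : (g : G) * (y⁻¹ * (g * y * g⁻¹)) = (y⁻¹ * (g * y * g⁻¹)) * g) : (g : G) * y = y * g := by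
  obtain ⟨k, hk⟩ := c.pP (y⁻¹ * MulAut.conjNormal (g : G) y)
  exact H4.commute_of_commute_commutator (orderOf_coe g ▸ cop_of_mem hps.symm S.isPGroup' hg) (k := k)
    (congrArg Subtype.val hk) h

omit [M.Normal] in
theorem CB.cent' (c : CB p P M H ρ) (hps : p ≠ s) {S : Sylow s H} {g : H} (hg : g ∈ (S : Subgroup H))
    (hM : (g : G) ∈ centralizer (M : Set G)) {y : P} (h : ∀ ν : P →* ℂˣ, ν (MulAut.conjNormal (g : G) y) = ν y) :
    (g : G) * y = y * g :=
  c.cent hps hg (hM _ (c.mem.1 (sep _ le_rfl (x := y⁻¹ * MulAut.conjNormal (g : G) y) fun ν _ => by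
    rw [map_mul, h, map_inv, inv_mul_cancel]))).symm

omit hp [M.Normal] in
theorem CB.dvd (c : CB p P M H ρ) {S : Sylow s H} (h1 : ∀ T, T = S) {ν : P →* ℂˣ}
    (h : ¬ (S : Subgroup H) ≤ (stab P ν).subgroupOf H) : s ∣ (stab P ν).index := by
  by_contra e
  rw [← c.cp.index (le_stab P ν)] at e
  obtain ⟨T, hT⟩ := H83.not_dvd_index_iff.1 e
  exact h (h1 T ▸ hT)

variable [Group.IsSolvable G] {q r : ℕ} [Fact q.Prime] [Fact r.Prime]

theorem CB.mix (c : CB p P M H ρ) (hpq : p ≠ q) (hpr : p ≠ r) (hqr : q ≠ r) (nq : ¬ Dv G (p * q))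
    (nr : ¬ Dv G (p * r)) (nqr : ¬ Dv G (q * r)) (dq : Dv G q) {Q : Sylow q H}
    (hQ : fix (Dual M) (Q : Subgroup H) = ⊤) {R : Sylow r H} (hR : fix (Dual M) (R : Subgroup H) ≠ ⊤) : False := by
  obtain ⟨u, aQ, cQ⟩ := (c.gg hpq nq).triv c.ab c.h0 hQ
  have : Subsingleton (Sylow q H) := ⟨fun a b => (u a).trans (u b).symm⟩
  have hn := Q.normal_of_subsingleton
  let A := (Q : Subgroup H).map H.subtype
  let K := (centralizer (A : Set G)).subgroupOf P
  have mK : ∀ {x : P}, x ∈ K ↔ ∀ g ∈ (Q : Subgroup H), (g : G) * x = x * g := fun {x} =>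
    ⟨fun h g hg => h _ ⟨g, hg, rfl⟩, by rintro h _ ⟨g, hg, rfl⟩; exact h g hg⟩
  have hK : _root_.commutator P ≤ K := fun x hx => mK.2 fun g hg => (cQ g hg _ (c.mem.1 hx)).symm
  let W : Subgroup (Dual P) := H89.homTriv K
  have mW : ∀ {ν : Dual P}, ν ∈ W ↔ ∀ k ∈ K, ν.hom k = 1 := Iff.rfl
  have cW : Nat.card W = K.index := card_triv K hK
  obtain ⟨g, hg, y, hy, hgy⟩ := c.ncent hpq dq u aQ
  let x : P := ⟨y, hy⟩⁻¹ * MulAut.conjNormal (g : G) ⟨y, hy⟩
  have xK : x ∉ K := fun h => hgy (c.cent hpq hg (y := ⟨y, hy⟩) (mK.1 h g hg))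
  have nc : NC r H W := fun ν hν h1 => by
    have := (c.cp.lin hqr nqr ν.hom (c.dvd u fun e => h1 (MonoidHom.ext fun z => ?_))).1
    · simpa only [fix_dual] using this
    have h2 := H46.commutator_sup_centralizer (A := A) (X := P) (Q.isPGroup'.map _) (fun d => by
      obtain ⟨k, hk⟩ := c.pP.exists_card_eq
      rw [hk] at d
      exact hpq ((Nat.prime_dvd_prime_iff_eq Fact.out hp.out).1 (Nat.Prime.dvd_of_dvd_pow Fact.out d)).symm)
      le_normalizer_of_normal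
    obtain ⟨w, hw, e1⟩ := sup_le (comm_le_ker (μ := ν.hom) (map_le_iff_le_comap.2 e))
      (fun w (hw : w ∈ P ⊓ centralizer (A : Set G)) => ⟨⟨w, hw.1⟩, mW.1 hν _ hw.2, rfl⟩) (h2.ge z.2)
    exact Subtype.ext e1 ▸ hw
  have hW : ∀ (h : H) (ν : Dual P), ν ∈ W → h • ν ∈ W := fun h ν hν => mW.2 fun k hk =>
    mW.1 hν (MulAut.conjNormal (h : G)⁻¹ k) (mK.2 fun a ha => by
      have := mK.1 hk _ (hn.conj_mem a ha h)
      simp only [coe_mul, coe_inv, MulAut.conjNormal_apply, inv_inv] at this ⊢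
      calc _ = (h : G)⁻¹ * (h * a * (h : G)⁻¹ * k) * h := by group
        _ = _ := by rw [this]; group)
  have nc' := (c.gg hpr nr).nc
  have e := card_eq ((pg_dual c.pP).to_subgroup W) ((pg_dual (c.pP.to_le c.le)).to_subgroup ⊤) nc nc'
    (fun e => xK ((index_eq_one.1 (by rw [← cW, e, card_bot])).ge trivial))
    (fun e => hR (eq_top_iff.2 (e.le.trans bot_le)))
    (by
      by_contra e
      rw [not_nontrivial_iff_subsingleton] at e
      refine hR (eq_top_iff.2 fun μ _ => ?_)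
      by_cases h1 : μ = 1
      · exact h1 ▸ one_mem _
      · obtain ⟨T, hT⟩ := (nc' μ trivial h1).exists
        exact Subsingleton.elim T R ▸ hT) R
    (fun S => by
      obtain ⟨h, e⟩ := MulAction.exists_smul_eq H R S
      exact ⟨h, e, fun w => ⟨fun hw => by simpa using hW h⁻¹ _ hw, hW h w⟩⟩)
    fun S => by
      obtain ⟨h, e⟩ := MulAction.exists_smul_eq H R S
      exact ⟨h, e, fun w => by simp⟩
  have h1 : K < (c.cm x).ker := lt_of_le_of_ne (fun k hk => by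
      have h2 : c.cm k (MulAut.conjNormal (g : G) ⟨y, hy⟩) = c.cm k ⟨y, hy⟩ := Subtype.ext (by
        have h3 := cQ g hg _ (c.cm k ⟨y, hy⟩).2
        have h4 := mK.1 hk g hg
        change ⁅k.1, g * y * (g : G)⁻¹⁆ = ⁅k.1, y⁆
        change ⁅k.1, y⁆ * g = g * ⁅k.1, y⁆ at h3
        rw [eq_mul_inv_of_mul_eq h3]
        nth_rw 1 [← eq_mul_inv_of_mul_eq h4.symm |>.symm]
        simp only [commutatorElement_def]; group)
      have h5 : c.cm k x = 1 := by rw [map_mul, h2, map_inv, inv_mul_cancel]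
      exact Subtype.ext (commutatorElement_eq_one_iff_mul_comm.2
        (commutatorElement_eq_one_iff_mul_comm.1 (congrArg Subtype.val h5)).symm))
    fun e => xK (e.ge (Subtype.ext (commutatorElement_self _)))
  have h2 : (c.cm x).range = ⊤ := eq_top_iff.2 fun m _ => sep _ (c.ab.comm.trans bot_le) fun μ hμ => by
    by_contra h1
    have h1 : μ ≠ 1 := fun e => h1 (e ▸ rfl)
    obtain ⟨θ, hθ, ov, -⟩ := c.over μ
    have h3 := ne_zero_of_comm hθ (x := x) fun z => (ov (c.cm x z)).trans (by rw [hμ _ ⟨z, rfl⟩]; simp)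
    have h4 : ∀ ν : P →* ℂˣ, ∀ a ∈ (Q : Subgroup H), (ν (MulAut.conjNormal (a : G) x) : ℂ) *
        θ (MulAut.conjNormal (a : G) x) = ν x * θ x := fun ν a ha => by
      obtain ⟨T, hT⟩ := (c.good hpq nq (isIrrCharacter_monoidHom_mul hθ ν) h1 fun m => by
        simp [c.lin, ov]).1.exists
      exact (mem_inertia_iff P).1 (hT (u T ▸ ha)) x
    refine xK (mK.2 fun a ha => c.cent' hpq ha (cQ a ha) fun ν => Units.ext (mul_right_cancel₀ h3 ?_))
    rw [← h4 ν a ha]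
    simpa using congrArg ((ν (MulAut.conjNormal (a : G) x) : ℂ) * ·) (h4 1 a ha).symm
  have h3 := index_strictAnti h1
  rw [index_ker, h2, card_top, ← cW, e, card_top] at h3
  exact h3.not_ge (H79.finite_card_monoidHom_units M).2

theorem CB.main (c : CB p P M H ρ) (hpq : p ≠ q) (hpr : p ≠ r) (hqr : q ≠ r) (nq : ¬ Dv G (p * q))
    (nr : ¬ Dv G (p * r)) (dq : Dv G q) (dr : Dv G r) : Dv G (q * r) := by
  by_contra nqr
  obtain ⟨Q⟩ : Nonempty (Sylow q H) := inferInstance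
  obtain ⟨R⟩ : Nonempty (Sylow r H) := inferInstance
  by_cases hQ : fix (Dual M) (Q : Subgroup H) = ⊤ <;> by_cases hR : fix (Dual M) (R : Subgroup H) = ⊤
  · have k : ∀ (s : ℕ) [Fact s.Prime], p ≠ s → ¬ Dv G (p * s) → Dv G s → ∀ S : Sylow s H,
        fix (Dual M) (S : Subgroup H) = ⊤ → (∀ T, T = S) ∧ fix (Dual P) (S : Subgroup H) ≠ ⊤ := by
      intro s _ h1 h2 h3 S hS
      obtain ⟨u, aS, cS⟩ := (c.gg h1 h2).triv c.ab c.h0 hS
      obtain ⟨g, hg, y, hy, hgy⟩ := c.ncent h1 h3 u aS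
      exact ⟨u, fun e => hgy (c.cent' h1 hg (cS g hg) (y := ⟨y, hy⟩) fun ν =>
        mem_stab.1 ((fix_dual _ (ν : Dual P)).1 (e.ge trivial) hg) _)⟩
    obtain ⟨a1, a2⟩ := k q hpq nq dq Q hQ
    obtain ⟨b1, b2⟩ := k r hpr nr dr R hR
    obtain ⟨ν, h1, h2⟩ := not_union a2 b2
    rw [fix_dual] at h1 h2
    exact nqr ((dv_stab P ν.hom).mono (mul_dvd hqr (c.dvd a1 h1) (c.dvd b1 h2)))
  · exact c.mix hpq hpr hqr nq nr nqr dq hQ hR
  · exact c.mix hpr hpq hqr.symm nr nq (mul_comm q r ▸ nqr) dr hR hQ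
  · exact nqr ((two hqr (pg_dual (c.pP.to_le c.le)) (c.gg hpq nq).nc (c.gg hpr nr).nc ⟨Q, hQ⟩ ⟨R, hR⟩).of_surj
      ρ c.cp.surj)

end Cfsg.Agent.H97.Pal
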